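import Mathlib
import Cfsg.Agent.Lib.Blk86.Nil

/-! A block that is not nilpotent has a trivial-intersection obstruction. -/

set_option autoImplicit false
set_option linter.unusedSectionVars false

open MonoidAlgebra H86

namespace H85.TG

/-- `K` plays the role of the stabiliser of a Brauer pair `(Q, f)` of maximal order whose
automiser is not induced by `D`. -/
structure Obs {G : Type*} [Group G] (D Q K : Subgroup G) : Prop where
  le : Q ≤ D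
  nor : K ≤ Nor Q
  cen : Cen Q ≤ K
  inf : D ⊓ Nor Q ≤ K
  odd : ¬ 2 ∣ (D ⊓ Nor Q ⊔ Cen Q).relIndex K
  ne : ¬ K ≤ D ⊓ Nor Q ⊔ Cen Q
  ti : ∀ x ∈ K, ∀ r ∈ D ⊓ Nor Q, r ∉ Q → x * r * x⁻¹ ∈ D ⊓ Nor Q ⊔ Cen Q →
    x ∈ D ⊓ Nor Q ⊔ Cen Q

variable {F G : Type*} [Field F] [Group G] [Finite G] [CharP F 2] [Good 2 F G]
  {P : Subgroup G} {b e : F[G]}

theorem isNil_or_obs (hm : IsMaxPair 2 ⊤ b P e) (hb : IsBlk ⊤ b) :
    IsNil 2 ⊤ b ∨ ∃ Q K, Obs P Q K := by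
  by_cases hO : ∃ Q K, Obs P Q K
  · exact Or.inr hO
  refine Or.inl ((isNil_iff_act hm hb).2 fun Q x hx => ?_)
  refine Mor.induction hm hb (Pr := fun Q x => ∃ u ∈ P, Act Q x u) ?_ ?_ ?_ ?_ hx
  · rintro Q R x hRQ - ⟨u, hu, h1⟩
    exact ⟨u, hu, fun q hq => h1 q (hRQ hq)⟩
  · rintro Q x y - - ⟨u, hu, h1⟩ ⟨v, hv, h2⟩
    refine ⟨v * u, P.mul_mem hv hu, fun q hq => ?_⟩
    calc y * x * q * (y * x)⁻¹ = y * (x * q * x⁻¹) * y⁻¹ := by group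
      _ = v * (u * q * u⁻¹) * v⁻¹ := by rw [h2 _ (conj_mem_cs.2 hq), h1 q hq]
      _ = _ := by group
  · rintro Q x - ⟨u, hu, h1⟩
    refine ⟨u⁻¹, P.inv_mem hu, fun q hq => ?_⟩
    have h2 := h1 _ (mem_cs.1 hq)
    calc x⁻¹ * q * x⁻¹⁻¹ = u⁻¹ * (u * (x⁻¹ * q * x) * u⁻¹) * u := by group
      _ = _ := by rw [← h2]; group
  · intro Q f h1 h2 IH t ht
    have hP := hm.toPair
    have hQ := h1.left hP
    have hN : P ⊓ Nor Q ≤ Nor (Cen Q) := inf_le_right.trans (Nor_le_Nor_Cen Q)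
    have key : ∀ y, y ∈ P ⊓ Nor Q ⊔ Cen Q → ∃ u ∈ P, Act Q y u := fun y hy => by
      obtain ⟨u, hu, c, hc, rfl⟩ := (mem_sup_of_le_Nor hN).1 hy
      exact ⟨u, hu.1, act_iff.2 (by simpa using hc)⟩
    refine key t ?_
    by_contra hcon
    rw [h1.inf_St hP] at h2
    obtain ⟨h3, h4⟩ := hQ.isDef_St h2
    rw [top_inf_eq] at h3 h4
    have hC : Cen Q ≤ St ⊤ Q f := by simpa using hQ.Cen_le_St
    have hL : P ⊓ Nor Q ⊔ Cen Q ≤ St ⊤ Q f := sup_le (h1.inf_Nor_le_St hP) hC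
    have hQL : Q ≤ P ⊓ Nor Q ⊔ Cen Q :=
      (le_inf h1.le Subgroup.le_normalizer).trans le_sup_left
    have hCL : ⊤ ⊓ Cen Q ≤ P ⊓ Nor Q ⊔ Cen Q := inf_le_right.trans le_sup_right
    have h5 : IsDef 2 (P ⊓ Nor Q ⊔ Cen Q) f (P ⊓ Nor Q) :=
      h4.sup (hP.pgrp.to_le inf_le_left) hN (hQ.isBlk_of_between hQL hCL hL)
        (h1.br_ne_zero hP inf_le_left inf_le_right)
    have h6 : P ⊓ (P ⊓ Nor Q ⊔ Cen Q) = P ⊓ Nor Q :=
      le_antisymm (inf_le_inf_left _ (hL.trans (St_le_Nor _ _ _)))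
        (le_inf inf_le_left le_sup_left)
    refine hO ⟨Q, St ⊤ Q f, h1.le, St_le_Nor _ _ _, hC, h1.inf_Nor_le_St hP, h3,
      fun h => hcon (h ht), fun x hx r hr hrQ hxr => ?_⟩
    have hxQ : cs x Q = Q := (mem_St.1 hx).2.1
    obtain ⟨s, hs, h7⟩ := exists_mor_ext (R := Q ⊔ Subgroup.zpowers r) hP h1 hQL hCL hL
      (by rw [h6]; exact h5) (h1.mor_of_mem_St hx) hxQ le_sup_left
      (sup_le h1.le (Subgroup.zpowers_le.2 hr.1))
      (sup_le Subgroup.le_normalizer (Subgroup.zpowers_le.2 hr.2)) (by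
        rw [cs_sup, hxQ]
        refine sup_le hQL fun y hy => ?_
        obtain ⟨k, hk⟩ := Subgroup.mem_zpowers_iff.1 (mem_cs.1 hy)
        have : y = (x * r * x⁻¹) ^ k := by rw [conj_zpow, hk]; group
        rw [this]
        exact Subgroup.zpow_mem _ hxr k)
    obtain ⟨u, hu, h8⟩ := IH _ _ (card_lt_of_lt (lt_of_le_of_ne le_sup_left fun h =>
      hrQ (h ▸ Subgroup.mem_sup_right (Subgroup.mem_zpowers r)))) h7
    have h9 : Act Q (s * x) u := fun q hq => h8 q (Subgroup.mem_sup_left hq)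
    have h10 : u ∈ Nor Q := mem_Nor_iff_cs.2 (by
      rw [← h9.cs_eq]; exact mem_Nor_iff_cs.1 (St_le_Nor _ _ _ ((St ⊤ Q f).mul_mem (hL hs) hx)))
    have : x = s⁻¹ * (u * (u⁻¹ * (s * x))) := by group
    rw [this]
    exact Subgroup.mul_mem _ (Subgroup.inv_mem _ hs) (Subgroup.mul_mem _
      (Subgroup.mem_sup_left ⟨hu, h10⟩) (Subgroup.mem_sup_right (act_iff.1 h9)))

end H85.TG
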