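import Mathlib
import Cfsg.Agent.Lib.TG.Obs
import Cfsg.Agent.Lib.Blk86.Quot
import Cfsg.Agent.Lib.Core.Frobenius
import Cfsg.Agent.Lib.Core.Coprime
import Cfsg.Agent.Lib.Core.GrpBasic
import Cfsg.Agent.Lib.Char.FrobeniusKernel
import Cfsg.Agent.Lib.PGroup.Frattini
import Cfsg.Agent.Lib.FF.EAGL
import Cfsg.Agent.Lib.GL.Basic

/-! Trivial intersection 2-subgroups of groups acting on an elementary group of order at most 8. -/

set_option autoImplicit false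
set_option linter.unusedSectionVars false
set_option linter.style.haveILetI false

open Subgroup H86
open scoped commutatorElement

namespace H85.TG

section Out

variable {V : Type*} [Group V] [Finite V]

theorem card_aut_dvd (hc : IsMulCommutative V) (h2 : ∀ v : V, v ^ 2 = 1) (h8 : Nat.card V ≤ 8) :
    Nat.card (MulAut V) ∣ 168 ∧ (7 ∣ Nat.card (MulAut V) → Nat.card V = 8) := by
  obtain ⟨n, hn⟩ := IsPGroup.iff_card.1 (show IsPGroup 2 V from fun v => ⟨1, by simpa using h2 v⟩)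
  obtain ⟨e⟩ := H23.nonempty_mulAut_equiv_GL hc h2 hn
  rw [Nat.card_congr e.toEquiv, H10.card_GL_fin, Nat.card_zmod, hn]
  have h3 : n ≤ 3 := by
    rw [hn] at h8
    exact (Nat.pow_le_pow_iff_right (by norm_num : 1 < 2)).1 (h8.trans (by norm_num))
  interval_cases n <;> decide

theorem four_le_fixed (hc : IsMulCommutative V) (h2 : ∀ v : V, v ^ 2 = 1) (h8 : Nat.card V = 8)
    {σ : MulAut V} (hσ : σ * σ = 1) : 4 ≤ Nat.card (H5.fixedSub σ) := by
  have hm : ∀ a b : V, a * b = b * a := fun a b => hc.is_comm.comm a b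
  let f : V →* V := ⟨⟨fun v => v * σ v, by simp⟩, fun a b => by
    simp only [map_mul, mul_assoc]
    rw [← mul_assoc b, hm b (σ a), mul_assoc]⟩
  have h1 : f.ker ≤ H5.fixedSub σ := fun v hv => by
    have h3 : v * σ v = 1 := hv
    rw [H5.mem_fixedSub, ← inv_eq_iff_mul_eq_one.2 h3, inv_eq_iff_mul_eq_one, ← pow_two, h2]
  have h3 : f.range ≤ H5.fixedSub σ := by
    rintro _ ⟨v, rfl⟩
    change σ (v * σ v) = v * σ v
    rw [map_mul, ← MulAut.mul_apply, hσ, MulAut.one_apply, hm]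
  have h4 := f.ker.card_mul_index
  rw [index_ker, h8] at h4
  have h5 := Nat.mul_le_mul (card_le_of_le h1) (card_le_of_le h3)
  have h6 := card_subgroup_dvd_card (H5.fixedSub σ)
  rw [h8] at h6
  have h7 := Nat.le_of_dvd (by norm_num) h6
  generalize Nat.card (H5.fixedSub σ) = k at *
  interval_cases k <;> omega

theorem eq_one_of_seven (hc : IsMulCommutative V) (h2 : ∀ v : V, v ^ 2 = 1) (h8 : Nat.card V = 8)
    {σ τ : MulAut V} (hσ : σ * σ = 1) (hτ : τ * τ = 1) (h7 : (σ * τ) ^ 7 = 1) : σ * τ = 1 := by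
  classical
  haveI := Fintype.ofFinite V
  haveI : Fact (Nat.Prime 7) := ⟨by norm_num⟩
  haveI : (H5.fixedSub τ).Normal := Subgroup.normal_of_comm _
  have h1 := H1.card_sup_mul_card_inf_of_normal (H5.fixedSub σ) (H5.fixedSub τ)
  have h3 := Nat.mul_le_mul (four_le_fixed hc h2 h8 hσ) (four_le_fixed hc h2 h8 hτ)
  have h4 : Nat.card (H5.fixedSub σ ⊔ H5.fixedSub τ : Subgroup V) ≤ 8 :=
    h8 ▸ Nat.card_le_card_of_injective _ (subtype_injective _)
  have h5 : Nat.card (H5.fixedSub σ ⊓ H5.fixedSub τ : Subgroup V) ≤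
      Nat.card (H5.fixedSub (σ * τ)) := card_le_of_le fun v hv => by
    rw [H5.mem_fixedSub, MulAut.mul_apply, H5.mem_fixedSub.1 hv.2, H5.mem_fixedSub.1 hv.1]
  have h6 := Equiv.Perm.card_fixedPoints_modEq (f := (MulAction.toEndHom (σ * τ) : Function.End V))
    (p := 7) (n := 1) (by rw [pow_one, ← map_pow, h7, map_one])
  rw [← Nat.card_eq_fintype_card, ← Nat.card_eq_fintype_card, h8] at h6
  have h9 : Nat.card (Function.fixedPoints (MulAction.toEndHom (σ * τ) : Function.End V)) =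
      Nat.card (H5.fixedSub (σ * τ)) := rfl
  rw [h9] at h6
  have h10 : Nat.card (H5.fixedSub (σ * τ)) ≤ 8 :=
    h8 ▸ Nat.card_le_card_of_injective _ (subtype_injective _)
  have h11 : Nat.card (H5.fixedSub (σ * τ)) = Nat.card V := by
    rw [h8]
    unfold Nat.ModEq at h6
    have : 2 ≤ Nat.card (H5.fixedSub σ ⊓ H5.fixedSub τ : Subgroup V) := by nlinarith
    omega
  ext v
  have : v ∈ H5.fixedSub (σ * τ) := by rw [eq_top_of_card_eq _ h11]; trivial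
  exact this

theorem out_aux {X : Type*} [Group X] [Finite X] (hc : IsMulCommutative V)
    (h2 : ∀ v : V, v ^ 2 = 1) (h8 : Nat.card V ≤ 8) (φ : X →* MulAut V)
    (hφ : Function.Injective φ) {T : Subgroup X} (hT : IsPGroup 2 T) (h0 : T ≠ ⊥) (h1 : T ≠ ⊤)
    (hTI : ∀ g : X, g ∉ T → ∀ t ∈ T, g * t * g⁻¹ ∈ T → t = 1) :
    Nat.card T = 2 ∧ ∃ u ∈ T, u ≠ 1 ∧ ∃ a : X, a ≠ 1 ∧ a ^ 3 = 1 ∧ u * a * u⁻¹ = a⁻¹ := by
  obtain ⟨N, hN, -, hNT⟩ := H8.exists_frobenius_kernel hTI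
  have hTN : T ≤ normalizer (N : Set X) := by rw [normalizer_eq_top]; exact le_top
  have hs : ∀ r ∈ T, r ≠ 1 → N ⊓ centralizer {r} = ⊥ := fun r hr hr1 =>
    H2.inf_centralizer_singleton_eq_bot_iff.2 fun k hk h => by
      by_contra hk1
      refine hr1 (hTI k (fun hkT => hk1 (disjoint_def.1 hNT.disjoint hk hkT)) r hr ?_)
      rw [h, mul_inv_cancel_right]; exact hr
  obtain ⟨k, hk⟩ := IsPGroup.iff_card.1 hT
  have hk0 : k ≠ 0 := fun h => h0 (card_eq_one.1 (by simpa [h] using hk))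
  obtain ⟨u, hu, ho⟩ := H1.exists_mem_orderOf_eq_prime Nat.prime_two
    (hk ▸ dvd_pow_self 2 hk0 : 2 ∣ Nat.card T)
  have hu1 : u ≠ 1 := fun h => by simp [h] at ho
  have huu : u * u = 1 := by rw [← pow_two, ← ho, pow_orderOf_eq_one]
  have hui : u⁻¹ = u := inv_eq_iff_mul_eq_one.2 huu
  have hx : ∀ a ∈ N, ∃ x, x * u * x⁻¹ * u = a := fun a ha => by
    obtain ⟨x, -, h⟩ := H2.exists_commutator_eq_of_fpf (hTN hu) (hs u hu hu1) ha
    exact ⟨x, by rwa [hui] at h⟩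
  obtain ⟨h3, h4⟩ := card_aut_dvd hc h2 h8
  have h5 : Nat.card N ∣ Nat.card (MulAut V) :=
    (card_subgroup_dvd_card N).trans (card_dvd_of_injective φ hφ)
  have h6 : Nat.card N ∣ 21 := by
    refine Nat.Coprime.dvd_of_dvd_mul_left (m := 2 ^ 3) (Nat.Coprime.pow_right 3 ?_) (h5.trans h3)
    have := H2.coprime_of_semiregular hTN hs
    rw [hk] at this
    exact ((Nat.coprime_pow_left_iff (Nat.pos_of_ne_zero hk0) _ _).1 this).symm
  have h7 : ¬ 7 ∣ Nat.card N := fun h => by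
    obtain ⟨a, ha, hao⟩ := H1.exists_mem_orderOf_eq_prime (by norm_num) h
    obtain ⟨x, rfl⟩ := hx a ha
    have := eq_one_of_seven hc h2 (h4 (h.trans h5)) (σ := φ (x * u * x⁻¹)) (τ := φ u)
      (by rw [← map_mul, show x * u * x⁻¹ * (x * u * x⁻¹) = x * (u * u) * x⁻¹ by group, huu]; simp)
      (by rw [← map_mul, huu, map_one]) (by rw [← map_mul, ← map_pow, ← hao, pow_orderOf_eq_one,
        map_one])
    rw [← map_mul, map_eq_one_iff _ hφ] at this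
    simp [this] at hao
  have h9 : Nat.card N ≠ 1 := fun h => h1 (by
    have := hNT.sup_eq_top
    rwa [card_eq_one.1 h, bot_sup_eq] at this)
  have h10 : Nat.card N = 3 := by
    have := Nat.le_of_dvd (by norm_num) h6
    generalize Nat.card N = n at *
    interval_cases n <;> simp_all
  have h11 := H2.card_dvd_sub_one_of_semiregular hTN hs
  rw [h10, hk] at h11
  obtain ⟨a, ha, hao⟩ := H1.exists_mem_orderOf_eq_prime Nat.prime_three (H := N) (by rw [h10])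
  refine ⟨?_, u, hu, hu1, a, fun h => by simp [h] at hao, hao ▸ pow_orderOf_eq_one a, ?_⟩
  · rw [hk]
    exact Nat.dvd_antisymm h11 (dvd_pow_self 2 hk0)
  · obtain ⟨x, rfl⟩ := hx a ha
    simp only [mul_inv_rev, inv_inv, hui, mul_assoc, huu, mul_one]

end Out

variable {G : Type*} [Group G] [Finite G] {D Q K : Subgroup G} {z : G}

/-- the Frattini subgroup inside the ambient group -/
abbrev Fr (Q : Subgroup G) : Subgroup G := (frattini Q).map Q.subtype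

theorem cop {g : G} (hg : ¬ 2 ∣ orderOf g) (hQ : IsPGroup 2 Q) :
    (Nat.card (zpowers g)).Coprime (Nat.card Q) :=
  H2.coprime_card_of_isPGroup (by
    rw [Nat.card_zpowers]; exact ((Nat.Prime.coprime_iff_not_dvd Nat.prime_two).2 hg).symm) hQ

theorem Nor_Fr {A : Subgroup G} (h : A ≤ Nor Q) : A ≤ Nor (Fr Q) :=
  H2.le_normalizer_map_subtype_of_characteristic h _

theorem Obs.cen_le (h : Obs D Q K) : D ⊓ Cen Q ≤ Q := fun c hc => by
  by_contra hcQ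
  refine h.ne fun x hx => h.ti x hx c ⟨hc.1, Cen_le_Nor Q hc.2⟩ hcQ (mem_sup_right ?_)
  exact conj_mem_of_Nor (Nor_le_Nor_Cen Q (h.nor hx)) hc.2

theorem Obs.exists_odd (h : Obs D Q K) : ∃ g ∈ K, ¬ 2 ∣ orderOf g ∧ g ∉ Cen Q := by
  by_contra hcon
  push Not at hcon
  exact h.ne (PQuot.eq_of_not_dvd (p := 2) hcon (h.nor.trans (Nor_le_Nor_Cen Q)) le_sup_right
    (sup_le h.inf h.cen) h.odd).ge

/-- the data extracted from an obstruction at a proper subgroup -/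
structure Ob2 (D Q : Subgroup G) (g s : G) : Prop where
  le : Q ≤ D
  cen : D ⊓ Cen Q ≤ Q
  gN : g ∈ Nor Q
  odd : ¬ 2 ∣ orderOf g
  gC : g ∉ Cen Q
  g3 : g ^ 3 ∈ Cen Q
  sD : s ∈ D
  sN : s ∈ Nor Q
  sQ : s ∉ Q
  two : ∀ n ∈ D, n ∈ Nor Q → n ∈ Q ∨ n * s⁻¹ ∈ Q
  inv : s * g * s⁻¹ * g ∈ Cen Q

theorem Obs.exists_ob2 (h : Obs D Q K) (hD : IsPGroup 2 D) (hne : D ≠ Q)
    (hz : z ∈ center G)
    (h8 : (Fr Q ⊔ zpowers z).relIndex Q ≤ 8) : ∃ g s, Ob2 D Q g s := by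
  classical
  have hQ : IsPGroup 2 Q := hD.to_le h.le
  have hcm : ∀ y, y * z = z * y := mem_center_iff.1 hz
  haveI hZn : (zpowers z).Normal := ⟨fun y hy x => by
    obtain ⟨k, rfl⟩ := mem_zpowers_iff.1 hy
    rw [(Commute.zpow_right (hcm x) k).eq, mul_inv_cancel_right]; exact hy⟩
  have hQW : ⁅Q, Q⁆ ≤ Fr Q ⊔ zpowers z := (H5.commutator_le_map_frattini hQ).trans le_sup_left
  haveI := H2.normal_subgroupOf_of_commutator_le hQW
  have hKW : K ≤ Nor (Fr Q ⊔ zpowers z) :=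
    H2.le_normalizer_sup (Nor_Fr h.nor) (by rw [normalizer_eq_top]; exact le_top)
  let ψ := H2.sectionAut h.nor hKW
  have hker : ∀ k : K, ψ k = 1 ↔ ∀ x ∈ Q, ⁅x, (k : G)⁆ ∈ Fr Q ⊔ zpowers z := fun k =>
    H2.mem_ker_sectionAut h.nor hKW k
  have hQK : Q ≤ K := (le_inf h.le le_normalizer).trans h.inf
  have hψQ : ∀ k : K, (k : G) ∈ Q → ψ k = 1 := fun k hk =>
    (hker k).2 fun x hx => hQW (commutator_mem_commutator hx hk)
  have hψC : ∀ k : K, (k : G) ∈ Cen Q → ψ k = 1 := fun k hk => (hker k).2 fun x hx => by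
    rw [commutatorElement_eq_one_iff_mul_comm.2 (mem_Cen.1 hk x hx)]; exact one_mem _
  have hodd : ∀ k : K, ¬ 2 ∣ orderOf (k : G) → ψ k = 1 → (k : G) ∈ Cen Q := fun k ho hk => by
    have hA : zpowers (k : G) ≤ Nor Q := zpowers_le.2 (h.nor k.2)
    have h1 : ⁅Q, zpowers (k : G)⁆ ≤ Fr Q ⊔ zpowers z := commutator_le.2 fun x hx y hy => by
      obtain ⟨i, rfl⟩ := mem_zpowers_iff.1 hy
      exact (hker (k ^ i)).1 (by rw [map_zpow, hk, one_zpow]) x hx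
    refine H2.le_centralizer_of_commutator_le_frattini hA
      ((cop ho hQ).coprime_dvd_right (card_subgroup_dvd_card _)) ?_ (mem_zpowers _)
    rw [← H2.commutator_commutator_eq hA (cop ho hQ)]
    refine (commutator_mono h1 le_rfl).trans ?_
    rw [H2.commutator_sup_eq_of_le_centralizer]
    · exact H2.commutator_le_of_le_normalizer (Nor_Fr hA)
    · exact zpowers_le.2 (Cen_le_Nor _ fun y _ => hcm y)
    · exact zpowers_le.2 fun y _ => hcm y
  let T := ((D ⊓ Nor Q).subgroupOf K).map ψ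
  have hT : IsPGroup 2 T := ((hD.to_le inf_le_left).comap_subtype).map ψ
  have hT1 : ∀ k : K, (k : G) ∈ D ⊓ Nor Q ⊔ Cen Q → ψ k ∈ T := fun k hk => by
    obtain ⟨u, hu, c, hc, e⟩ := (mem_sup_of_le_Nor (inf_le_right.trans (Nor_le_Nor_Cen Q))).1 hk
    have : k = ⟨u, h.inf hu⟩ * ⟨c, h.cen hc⟩ := Subtype.ext e
    rw [this, map_mul, hψC ⟨c, _⟩ hc, mul_one]
    exact mem_map_of_mem ψ hu
  have hT2 : ∀ k : K, ψ k ∈ T → (k : G) ∈ D ⊓ Nor Q ⊔ Cen Q := fun k hk => by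
    have h1 : (T.comap ψ).map K.subtype ≤ K := map_subtype_le _
    have h2 : D ⊓ Nor Q ⊔ Cen Q ≤ (T.comap ψ).map K.subtype := fun y hy =>
      ⟨⟨y, sup_le h.inf h.cen hy⟩, hT1 _ hy, rfl⟩
    rw [PQuot.eq_of_not_dvd (p := 2) ?_ (h1.trans (h.nor.trans (Nor_le_Nor_Cen Q))) le_sup_right
      h2 fun h3 => h.odd (h3.trans (Dvd.intro _ (relIndex_mul_relIndex _ _ _ h2 h1)))]
    · exact ⟨k, hk, rfl⟩
    · rintro _ ⟨y, hy, rfl⟩ ho
      refine hodd y ho ?_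
      obtain ⟨n, hn⟩ := hT ⟨ψ y, hy⟩
      have h4 : ψ y ^ 2 ^ n = 1 := congrArg Subtype.val hn
      have h5 : y ^ 2 ^ n ∈ ψ.ker := by rw [MonoidHom.mem_ker, map_pow, h4]
      exact mem_of_pow_mem (p := 2) (by simpa using ho) h5
  have hT3 : ∀ k : K, (k : G) ∈ D ⊓ Nor Q → ψ k = 1 → (k : G) ∈ Q := fun k hk h1 => by
    by_contra h2
    refine h.ne fun x hx => h.ti x hx k hk h2 (hT2 (⟨x, hx⟩ * k * ⟨x, hx⟩⁻¹) ?_)
    rw [map_mul, map_mul, h1, map_inv, mul_one, mul_inv_cancel]; exact one_mem _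
  have hTX : T ≤ ψ.range := map_le_range _ _
  obtain ⟨h1, u, hu, hu1, a, ha1, ha3, hua⟩ := out_aux (H2.isMulCommutative_section hQW)
    (fun v => by
      induction v using QuotientGroup.induction_on with | _ v =>
      rw [← QuotientGroup.mk_pow, QuotientGroup.eq_one_iff]
      exact mem_sup_left (H5.pow_mem_map_frattini hQ v.2))
    h8 ψ.range.subtype (subtype_injective _) (T := T.subgroupOf ψ.range) hT.comap_subtype
    (fun h1 => by
      obtain ⟨x, hx, hxQ, -, hxN⟩ := H5.exists_mem_normalizer_of_lt hD (lt_of_le_of_ne h.le hne.symm)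
      have h2 : (⟨ψ ⟨x, h.inf ⟨hx, hxN⟩⟩, _, rfl⟩ : ψ.range) ∈ T.subgroupOf ψ.range :=
        mem_map_of_mem ψ (show _ ∈ D ⊓ Nor Q from ⟨hx, hxN⟩)
      rw [h1, mem_bot] at h2
      exact hxQ (hT3 _ ⟨hx, hxN⟩ (congrArg Subtype.val h2)))
    (fun h1 => h.ne fun x hx => hT2 ⟨x, hx⟩
      (show (⟨ψ ⟨x, hx⟩, _, rfl⟩ : ψ.range) ∈ T.subgroupOf ψ.range by rw [h1]; trivial))
    (by
      rintro ⟨_, x, rfl⟩ hx ⟨_, hr'⟩ ⟨r, hr, rfl⟩ hxr
      by_contra h2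
      refine hx (hT1 x (h.ti x x.2 r hr (fun h3 => h2 (Subtype.ext (hψQ r h3)))
        (hT2 (x * r * x⁻¹) ?_)))
      rw [map_mul, map_mul, map_inv]; exact hxr)
  obtain ⟨u, hu'⟩ := u
  obtain ⟨s₀, hs₀, rfl⟩ := hu
  obtain ⟨g, -, hgo, hga⟩ := exists_reg_lift (p := 2) (φ := ψ) (H := ⊤) (k := (a : MulAut _))
    (by rw [← MonoidHom.range_eq_map]; exact a.2) (fun h2 => by
      have h3 := h2.trans (by simpa using orderOf_dvd_of_pow_eq_one ha3 : _ ∣ 3)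
      norm_num at h3)
  have hgo' : ¬ 2 ∣ orderOf (g : G) := by simpa using hgo
  have hg3 : ((g ^ 3 : K) : G) ∈ Cen Q := hodd _
    (fun h2 => hgo' (h2.trans (by simpa using orderOf_pow_dvd (x := (g : G)) 3)))
    (by rw [map_pow, hga]; exact congrArg Subtype.val ha3)
  have hua' : ψ s₀ * ψ g * (ψ s₀)⁻¹ = (ψ g)⁻¹ := by rw [hga]; exact congrArg Subtype.val hua
  let π := H2.conjAut h.nor
  have hπ : ∀ k : K, π k = 1 ↔ (k : G) ∈ Cen Q := fun k => by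
    rw [← MonoidHom.mem_ker, H23.ker_conjAut, mem_subgroupOf]
  let I := (Q.subgroupOf K).map π
  have hI : ∀ k : K, ψ k = 1 → π k ∈ I := fun k hk => by
    obtain ⟨u, hu, c, hc, e⟩ := (mem_sup_of_le_Nor (inf_le_right.trans (Nor_le_Nor_Cen Q))).1
      (hT2 k (hk ▸ one_mem _))
    have e' : k = ⟨u, h.inf hu⟩ * ⟨c, h.cen hc⟩ := Subtype.ext e
    rw [e', map_mul, hψC ⟨c, _⟩ hc, mul_one] at hk
    rw [e', map_mul, (hπ ⟨c, _⟩).2 hc, mul_one]
    exact mem_map_of_mem π (hT3 _ hu hk)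
  let f : Function.End I := fun i => ⟨(π s₀)⁻¹ * π g * π s₀ * i * π g, by
    obtain ⟨_, q, hq, rfl⟩ := i
    simp only [← map_inv, ← map_mul]
    refine hI _ ?_
    simp only [map_mul, map_inv, hψQ q hq, mul_one]
    calc (ψ s₀)⁻¹ * ψ g * ψ s₀ * ψ g
        = (ψ s₀)⁻¹ * (ψ g * (ψ s₀ * ψ g * (ψ s₀)⁻¹)) * ψ s₀ := by group
      _ = 1 := by rw [hua']; group⟩
  have hγ : π g ^ 3 = 1 := by rw [← map_pow]; exact (hπ _).2 hg3
  haveI := Fintype.ofFinite I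
  haveI : Fact (Nat.Prime 3) := ⟨Nat.prime_three⟩
  have h4 := Equiv.Perm.card_fixedPoints_modEq (f := f) (p := 3) (n := 1) (by
    funext i
    apply Subtype.ext
    change (π s₀)⁻¹ * π g * π s₀ * ((π s₀)⁻¹ * π g * π s₀ * ((π s₀)⁻¹ * π g * π s₀ * i * π g) *
      π g) * π g = i
    calc _ = (π s₀)⁻¹ * π g ^ 3 * π s₀ * i * π g ^ 3 := by
          simp only [pow_succ, pow_zero, one_mul, mul_assoc, mul_inv_cancel_left]
      _ = i := by rw [hγ]; group)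
  obtain ⟨n, hn⟩ : ∃ n, Nat.card I = 2 ^ n := IsPGroup.iff_card.1 (hQ.comap_subtype.map π)
  obtain ⟨⟨⟨_, q, hq, rfl⟩, hf⟩⟩ : Nonempty (Function.fixedPoints f) := by
    by_contra h5
    rw [not_nonempty_iff] at h5
    rw [Fintype.card_eq_zero (α := Function.fixedPoints f), ← Nat.card_eq_fintype_card, hn] at h4
    exact absurd (Nat.prime_three.dvd_of_dvd_pow ((Nat.modEq_zero_iff_dvd).1 h4)) (by norm_num)
  have hf' : (π s₀)⁻¹ * π g * π s₀ * π q * π g = π q := congrArg Subtype.val hf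
  have hs1 : ψ s₀ ≠ 1 := fun h2 => hu1 (Subtype.ext h2)
  refine ⟨g, s₀ * q, h.le, h.cen_le, h.nor g.2, hgo', fun h2 => ha1 (Subtype.ext ?_),
    by simpa using hg3, D.mul_mem hs₀.1 (h.le hq), h.nor (s₀ * q).2, fun h2 => hs1 ?_,
    fun n hn hnN => ?_, (hπ (s₀ * q * g * (s₀ * q)⁻¹ * g)).1 ?_⟩
  · rw [← hga]; exact hψC _ h2
  · have := hψQ (s₀ * q) h2
    rwa [map_mul, hψQ q hq, mul_one] at this
  · have h2 : ψ ⟨n, h.inf ⟨hn, hnN⟩⟩ ∈ T := mem_map_of_mem ψ (show _ ∈ D ⊓ Nor Q from ⟨hn, hnN⟩)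
    rw [H1.card_subgroupOf_of_le hTX] at h1
    by_cases h3 : ψ ⟨n, h.inf ⟨hn, hnN⟩⟩ = 1
    · exact Or.inl (hT3 _ ⟨hn, hnN⟩ h3)
    refine Or.inr (hT3 (⟨n, h.inf ⟨hn, hnN⟩⟩ * (s₀ * q)⁻¹) ⟨D.mul_mem hn (D.inv_mem
      (D.mul_mem hs₀.1 (h.le hq))), (Nor Q).mul_mem hnN ((Nor Q).inv_mem (h.nor (s₀ * q).2))⟩ ?_)
    obtain ⟨y, -, hy⟩ := (Nat.card_eq_two_iff' (1 : T)).1 h1
    have h5 := (hy ⟨_, h2⟩ fun h6 => h3 (congrArg Subtype.val h6)).trans
      (hy ⟨_, mem_map_of_mem ψ hs₀⟩ fun h6 => hs1 (congrArg Subtype.val h6)).symm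
    have h6 : ψ ⟨n, h.inf ⟨hn, hnN⟩⟩ = ψ s₀ := congrArg Subtype.val h5
    rw [map_mul, map_inv, map_mul, hψQ q hq, mul_one, h6, mul_inv_cancel]
  · simp only [map_mul, map_inv]
    calc π s₀ * π q * π g * (π s₀ * π q)⁻¹ * π g
        = (π g)⁻¹ * π s₀ * ((π s₀)⁻¹ * π g * π s₀ * π q * π g) * (π s₀ * π q)⁻¹ * π g := by group
      _ = 1 := by rw [hf']; group

end H85.TG
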