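import Mathlib
import Cfsg.Agent.Lib.TG.Out
import Cfsg.Agent.Lib.PGroup.MaxClass2
import Cfsg.Agent.Lib.PGroup.Commutator
import Cfsg.Agent.Lib.Core.Frattini
import Cfsg.Agent.Lib.Core.CoprimeAbelian

/-! Two-generated 2-groups of order at most 64 with an automorphism of odd order. -/

set_option autoImplicit false
set_option linter.unusedSectionVars false
set_option linter.style.haveILetI false

open Subgroup H86
open scoped commutatorElement

namespace H85.TG

variable {G : Type*} [Group G] [Finite G] {D Q R K N M H : Subgroup G} {a b g s t x y z : G}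

theorem two_mul_le {m n : ℕ} (h : m ∣ n) (hlt : m < n) : 2 * m ≤ n := by
  obtain ⟨k, rfl⟩ := h
  rcases k with _ | _ | k <;> nlinarith

theorem two_card_le (h : H < K) : 2 * Nat.card H ≤ Nat.card K :=
  two_mul_le (card_dvd_of_le h.le) (H1.card_lt_of_lt h)

theorem comm_lt (hR : IsPGroup 2 R) (hKR : K ≤ R) (hn : R ≤ Nor K) (hK : K ≠ ⊥) : ⁅K, R⁆ < K := by
  have := hR.isNilpotent
  have hn' : (K.subgroupOf R).Normal := (normal_subgroupOf_iff_le_normalizer hKR).2 hn
  have h1 := H5.commutator_top_lt_of_nilpotent (K.subgroupOf R)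
    (fun h => hK (by rw [← map_subgroupOf_eq_of_le hKR, h, Subgroup.map_bot]))
  have h2 := map_subtype_lt_map_subtype.2 h1
  rwa [map_commutator, map_subgroupOf_eq_of_le hKR, ← MonoidHom.range_eq_map, range_subtype] at h2

theorem mem_Nor_of (h : ∀ n ∈ N, x * n * x⁻¹ ∈ N) : x ∈ Nor N := mem_normalizer_fintype h

theorem mem_Nor_zpowers (h : x * y * x⁻¹ ∈ zpowers y) : x ∈ Nor (zpowers y) :=
  mem_Nor_of fun n hn => by
    obtain ⟨k, rfl⟩ := mem_zpowers_iff.1 hn
    rw [← conj_zpow]; exact zpow_mem h k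

theorem comm_closure_le (ha : a ∈ Nor N) (hb : b ∈ Nor N) (h : ⁅a, b⁆ ∈ N) :
    ⁅closure ({a, b} : Set G), closure ({a, b} : Set G)⁆ ≤ N := by
  have h1 : ∀ x ∈ ({a, b} : Set G), x ∈ Nor N := by rintro x (rfl | rfl) <;> assumption
  have h2 : ∀ x ∈ ({a, b} : Set G), ∀ y ∈ ({a, b} : Set G), ⁅x, y⁆ ∈ N := by
    rintro x (rfl | rfl) y (rfl | rfl)
    · simpa using N.one_mem
    · exact h
    · rw [← commutatorElement_inv]; exact N.inv_mem h
    · simpa using N.one_mem
  refine H2.commutator_closure_le h1 fun x hx y hy => ?_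
  rw [← commutatorElement_inv]
  refine N.inv_mem ?_
  induction hy using closure_induction with
  | mem y hy => exact h2 y hy x hx
  | one => simpa using N.one_mem
  | mul u v hu _ h3 h4 =>
    have : ⁅u * v, x⁆ = u * ⁅v, x⁆ * u⁻¹ * ⁅u, x⁆ := by simp only [commutatorElement_def]; group
    rw [this]
    exact N.mul_mem (conj_mem_of_Nor ((closure_le _).2 h1 hu) h4) h3
  | inv u hu h3 =>
    have : ⁅u⁻¹, x⁆ = u⁻¹ * ⁅u, x⁆⁻¹ * u := by simp only [commutatorElement_def]; group
    rw [this]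
    exact conj_mem_of_Nor' ((closure_le _).2 h1 hu) (N.inv_mem h3)

theorem Fr_le : Fr D ≤ D := map_subtype_le _

theorem le_Nor_of_Fr (hD : IsPGroup 2 D) (h1 : Fr D ≤ K) (h2 : K ≤ D) : D ≤ Nor K :=
  H2.le_normalizer_of_commutator_le h2 ((H5.commutator_le_map_frattini hD).trans h1)

theorem card_sup_eq (hD : IsPGroup 2 D) (h1 : Fr D ≤ K) (h2 : K ≤ D) (hx : x ∈ D) (hK : x ∉ K) :
    Nat.card (K ⊔ zpowers x : Subgroup G) = Nat.card K * 2 :=
  H5.card_sup_zpowers Nat.prime_two (le_Nor_of_Fr hD h1 h2 hx) hK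
    (h1 (H5.pow_mem_map_frattini hD hx))

theorem card_sup_le (hD : IsPGroup 2 D) (h1 : Fr D ≤ K) (h2 : K ≤ D) (hx : x ∈ D) :
    Nat.card (K ⊔ zpowers x : Subgroup G) ≤ Nat.card K * 2 := by
  by_cases hK : x ∈ K
  · rw [sup_eq_left.2 (zpowers_le.2 hK)]; omega
  · exact (card_sup_eq hD h1 h2 hx hK).le

theorem card_le_four (hD : IsPGroup 2 D) (h : closure ({x, y} : Set G) = D) :
    Nat.card D ≤ 4 * Nat.card (Fr D) := by
  have hx : x ∈ D := h ▸ subset_closure (by simp)
  have hy : y ∈ D := h ▸ subset_closure (by simp)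
  have h1 := card_sup_le hD le_rfl Fr_le hx
  have h2 := card_sup_le hD (K := Fr D ⊔ zpowers x) le_sup_left (sup_le Fr_le (zpowers_le.2 hx)) hy
  have h3 : D ≤ Fr D ⊔ zpowers x ⊔ zpowers y := by
    rw [← h, closure_le]
    rintro _ (rfl | rfl)
    · exact mem_sup_left (mem_sup_right (mem_zpowers _))
    · exact mem_sup_right (mem_zpowers _)
  have := card_le_of_le h3
  omega

theorem gen2 (hD : IsPGroup 2 D) (h4 : Nat.card D ≤ 4 * Nat.card (Fr D)) (ha : a ∈ D)
    (ht : t ∈ D) (h1 : Fr D ≤ M) (h2 : a ∈ M) (h3 : a ∉ Fr D) (h5 : t ∉ M) :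
    closure ({a, t} : Set G) = D := by
  have h6 := card_sup_eq hD le_rfl Fr_le ha h3
  have h7 : Fr D ⊔ zpowers a ≤ D := sup_le Fr_le (zpowers_le.2 ha)
  have h8 := card_sup_eq hD le_sup_left h7 ht fun h => h5 (sup_le h1 (zpowers_le.2 h2) h)
  have h9 := eq_of_le_of_card_ge (sup_le h7 (zpowers_le.2 ht)) (by omega)
  refine H2.eq_of_sup_frattini ((closure_le _).2 (by rintro _ (rfl | rfl) <;> assumption)) ?_
  refine h9.ge.trans (sup_le (sup_le le_sup_left ?_) ?_) <;>
    exact zpowers_le.2 (mem_sup_right (subset_closure (by simp)))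

theorem Fr_le_of_sq (hD : IsPGroup 2 D) (h : ∀ d ∈ D, d ^ 2 ∈ H) : Fr D ≤ H := by
  rw [Fr, H5.frattini_eq_closure_sq hD, map_le_iff_le_comap, closure_le]
  rintro _ ⟨d, rfl⟩
  exact h d d.2

/-- `H` has index at most two in `K` -/
def Idx (H K : Subgroup G) : Prop := ∀ x ∈ K, ∀ y ∈ K, x ∉ H → y ∉ H → x * y ∈ H

theorem idx_of_card (h : H ≤ K) (hc : Nat.card K ≤ 2 * Nat.card H) : Idx H K := by
  intro x hx y hy h1 h2
  have h3 := H1.card_mul_relIndex_of_le h
  have h4 : 0 < Nat.card H := Nat.card_pos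
  have h5 : H.relIndex K ≠ 1 := fun h5 => h1 (relIndex_eq_one.1 h5 hx)
  have h6 : H.relIndex K ≠ 0 := fun h6 => by
    rw [h6] at h3; exact (Nat.card_pos (α := K)).ne h3
  have h7 : H.relIndex K = 2 := by
    have : H.relIndex K ≤ 2 := by nlinarith
    omega
  exact (mul_mem_iff_of_index_two (H := H.subgroupOf K) h7 (a := ⟨x, hx⟩) (b := ⟨y, hy⟩)).2
    (iff_of_false h1 h2)

theorem Idx.card (h : Idx H K) (hle : H ≤ K) : Nat.card K ≤ 2 * Nat.card H := by
  by_cases h1 : K ≤ H
  · have := card_le_of_le h1; omega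
  obtain ⟨a, ha, haH⟩ := SetLike.not_le_iff_exists.1 h1
  have h2 : H.relIndex K ∣ 2 := relIndex_dvd_two_iff.2 ⟨a, ha, fun b hb => by
    by_cases h3 : b ∈ H
    · exact Or.inr h3
    · exact Or.inl (h b hb a ha h3 haH)⟩
  rw [← H1.card_mul_relIndex_of_le hle, mul_comm]
  exact Nat.mul_le_mul_right _ (Nat.le_of_dvd two_pos h2)

theorem Idx.comm (h : Idx H K) (hK : g ∈ Nor K) (hH : g ∈ Nor H) (hx : x ∈ K) : ⁅x, g⁆ ∈ H := by
  have : ⁅x, g⁆ = x * (g * x⁻¹ * g⁻¹) := by simp only [commutatorElement_def]; group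
  rw [this]
  by_cases h1 : x ∈ H
  · exact H.mul_mem h1 (conj_mem_of_Nor hH (H.inv_mem h1))
  · exact h _ hx _ (conj_mem_of_Nor hK (K.inv_mem hx)) h1
      fun h2 => h1 (H.inv_mem_iff.1 ((mem_Nor.1 hH _).2 h2))

theorem Idx.comm_le (h : Idx H K) (hK : g ∈ Nor K) (hH : g ∈ Nor H) : ⁅K, zpowers g⁆ ≤ H :=
  commutator_le.2 fun _ hx _ hy => h.comm (zpowers_le.2 hK hy) (zpowers_le.2 hH hy) hx

/-- an odd element acting nontrivially on a two-generated group fixes no maximal subgroup -/
theorem noInv (hR : IsPGroup 2 R) (h4 : Nat.card R ≤ 4 * Nat.card (Fr R)) (hg : g ∈ Nor R)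
    (ho : ¬ 2 ∣ orderOf g) (hc : g ∉ Cen R) (hH : H ≤ R) (hgH : g ∈ Nor H) (hi : Idx H R) :
    R ≤ H := by
  by_contra h1
  have hA : zpowers g ≤ Nor R := zpowers_le.2 hg
  have h2 : Fr R ≤ H := Fr_le_of_sq hR fun d hd => by
    by_cases h : d ∈ H
    · exact H.pow_mem h 2
    · rw [pow_two]; exact hi d hd d hd h h
  have h3 := two_card_le (lt_of_le_of_ne hH fun h => h1 h.ge)
  refine hc (H2.le_centralizer_of_commutator_le_frattini hA
    ((cop ho hR).coprime_dvd_right (card_subgroup_dvd_card _)) ?_ (mem_zpowers _))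
  rw [← H2.commutator_commutator_eq hA (cop ho hR)]
  exact (commutator_mono (hi.comm_le hg hgH) le_rfl).trans
    ((idx_of_card h2 (by omega)).comm_le hgH (Nor_Fr hA (mem_zpowers _)))

theorem eq_Fr (hR : IsPGroup 2 R) (h4 : Nat.card R ≤ 4 * Nat.card (Fr R)) (hg : g ∈ Nor R)
    (ho : ¬ 2 ∣ orderOf g) (hc : g ∉ Cen R) (hH : H ≤ R) (hgH : g ∈ Nor H) (h1 : ¬ R ≤ H) :
    H ≤ Fr R := by
  by_contra h2
  have h3 := two_card_le (show Fr R < Fr R ⊔ H from left_lt_sup.2 h2)
  have h5 := noInv hR h4 hg ho hc (sup_le Fr_le hH)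
    (mem_Nor_sup (Nor_Fr le_rfl hg) hgH) (idx_of_card (sup_le Fr_le hH) (by omega))
  exact h1 (H2.eq_of_sup_frattini hH h5).ge

section H

variable {X : Type*} [Group X] [Finite X] {a b : X}

theorem comm_le_sup (h : closure ({a, b} : Set X) = ⊤) :
    commutator X ≤ ⁅commutator X, (⊤ : Subgroup X)⁆ ⊔ zpowers ⁅a, b⁆ := by
  haveI := H5.normal_sup_zpowers (K := ⁅commutator X, (⊤ : Subgroup X)⁆) (x := ⁅a, b⁆) fun g =>
    commutator_mem_commutator (commutator_mem_commutator trivial trivial) trivial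
  conv_lhs => rw [commutator_def, ← h]
  refine comm_closure_le ?_ ?_ (mem_sup_right (mem_zpowers _)) <;>
    exact le_normalizer_of_normal (mem_top _)

theorem class_two_aux (hX : IsPGroup 2 X) (h64 : Nat.card X ≤ 64)
    (h : closure ({a, b} : Set X) = ⊤) (hn : ∀ M : Subgroup X, M.Characteristic → M.index ≠ 2)
    (h3 : ⁅⁅commutator X, (⊤ : Subgroup X)⁆, (⊤ : Subgroup X)⁆ = ⊥) :
    ⁅commutator X, (⊤ : Subgroup X)⁆ = ⊥ := by
  classical
  by_contra h0
  have hc : ⁅a, b⁆ ∈ commutator X := commutator_mem_commutator trivial trivial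
  have hz : ∀ w ∈ ⁅commutator X, (⊤ : Subgroup X)⁆, ∀ r, Commute w r := fun w hw r =>
    H5.commute_of_commutator_eq_bot h3 hw trivial
  have hΦ : (frattini X).index ∣ 4 := (H1.index_frattini_dvd_pow_card hX {a, b} (by simpa using h)).trans
    (pow_dvd_pow 2 Finset.card_le_two)
  set M := centralizer (commutator X : Set X) with hM
  have hMc : M.Characteristic := inferInstance
  have h1 : M ⊔ frattini X ≠ ⊤ := fun h1 => h0 (by
    rw [commutator_comm, commutator_eq_bot_iff_le_centralizer, ← hM, frattini_nongenerating h1])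
  have h2 : (M ⊔ frattini X).index = 4 := by
    have h4 := (index_dvd_of_le (le_sup_right : _ ≤ M ⊔ frattini X)).trans hΦ
    have h5 := hn (M ⊔ frattini X) inferInstance
    have h6 : (M ⊔ frattini X).index ≠ 1 := fun h => h1 (index_eq_one.1 h)
    have := Nat.le_of_dvd (by norm_num) h4
    generalize (M ⊔ frattini X).index = n at *
    interval_cases n <;> omega
  have h4 : 4 ∣ M.index := h2 ▸ index_dvd_of_le le_sup_left
  have h5 : (frattini X).index = 4 := Nat.dvd_antisymm hΦ (h2 ▸ index_dvd_of_le le_sup_right)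
  let φ : X →* X := MonoidHom.mk' (fun r => ⁅⁅a, b⁆, r⁆) fun r r' =>
    H5.commutator_mul_right_of_commute (hz _ (commutator_mem_commutator hc trivial) r).symm
  have h6 : φ.ker ≤ M := fun r hr w hw => by
    obtain ⟨k, hk, i, rfl⟩ := (H5.mem_sup_zpowers_iff (le_normalizer_of_normal (mem_top _))).1
      (comm_le_sup h hw)
    exact ((hz k hk r).mul_left ((commutatorElement_eq_one_iff_commute.1 hr).zpow_left i)).eq
  have h7 : 4 ≤ Nat.card (⁅commutator X, (⊤ : Subgroup X)⁆ : Subgroup X) := by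
    have h8 : φ.range ≤ ⁅commutator X, (⊤ : Subgroup X)⁆ := by
      rintro _ ⟨r, rfl⟩; exact commutator_mem_commutator hc trivial
    refine le_trans (Nat.le_of_dvd Nat.card_pos ?_) (card_le_of_le h8)
    rw [← index_ker]; exact h4.trans (index_dvd_of_le h6)
  haveI := hX.isNilpotent
  have h8 : commutator X ≠ ⊥ := fun h8 => h0 (by rw [h8, commutator_bot_left])
  have h9 := two_card_le (H5.commutator_top_lt_of_nilpotent (commutator X) h8)
  have h10 := (frattini X).card_mul_index
  have h11 : ∀ r : X, r * r ∈ commutator X := by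
    let ψ : X →* Abelianization X := (powMonoidHom 2).comp Abelianization.of
    have hψ : ∀ r, r ∈ ψ.ker ↔ r * r ∈ commutator X := fun r => by
      rw [← Abelianization.ker_of, MonoidHom.mem_ker, MonoidHom.mem_ker, map_mul, ← pow_two]; rfl
    have h12 : ψ.ker.Characteristic := characteristic_iff_le_comap.2 fun σ r hr => by
      rw [mem_comap, hψ]
      exact (map_mul σ.toMonoidHom r r) ▸ characteristic_iff_le_comap.1 inferInstance σ ((hψ r).1 hr)
    have h13 : ψ.range ≤ (frattini X).map Abelianization.of := by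
      rintro _ ⟨r, rfl⟩
      exact ⟨r ^ 2, H5.pow_mem_frattini hX r, map_pow _ _ _⟩
    have h14 := H1.card_map_mul_card_inf_ker Abelianization.of (frattini X)
    rw [Abelianization.ker_of, inf_eq_left.2 (H5.commutator_le_frattini hX)] at h14
    have h15 := card_le_of_le h13
    rw [← index_ker] at h15
    have h16 := hn _ h12
    have h17 : ψ.ker.index ≠ 0 := index_ne_zero_of_finite
    have h18 : ψ.ker.index = 1 := by
      have : Nat.card ((frattini X).map Abelianization.of) ≤ 2 := by nlinarith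
      omega
    intro r
    rw [← hψ, index_eq_one.1 h18]; trivial
  have h12 : frattini X = commutator X := le_antisymm
    (H5.frattini_le_of_commutator_le_of_pow_mem (p := 2) le_rfl fun r => by rw [pow_two]; exact h11 r)
    (H5.commutator_le_frattini hX)
  obtain ⟨n, hn2⟩ := H83.taussky hX (h12 ▸ h5) h11
  haveI := normal_of_index_eq_two hn2
  have h13 : zpowers n ≤ M := zpowers_le.2 fun w hw => by
    obtain ⟨k, rfl⟩ := mem_zpowers_iff.1
      (H5.commutator_le_of_index_prime (M := zpowers n) (hn2 ▸ Nat.prime_two) hw)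
    exact (Commute.zpow_self n k).eq
  have := h4.trans (index_dvd_of_le h13)
  rw [hn2] at this
  norm_num at this

theorem class_two_type (hX : IsPGroup 2 X) (h64 : Nat.card X ≤ 64)
    (h : closure ({a, b} : Set X) = ⊤) (hn : ∀ M : Subgroup X, M.Characteristic → M.index ≠ 2) :
    ⁅commutator X, (⊤ : Subgroup X)⁆ = ⊥ := by
  by_contra h0
  haveI := hX.isNilpotent
  refine (H5.commutator_top_lt_of_nilpotent _ h0).not_ge ?_
  let N : Subgroup X := ⁅⁅commutator X, (⊤ : Subgroup X)⁆, (⊤ : Subgroup X)⁆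
  have hs := QuotientGroup.mk'_surjective N
  have ht : (⊤ : Subgroup X).map (QuotientGroup.mk' N) = ⊤ := map_top_of_surjective _ hs
  have h1 : ⁅commutator (X ⧸ N), (⊤ : Subgroup (X ⧸ N))⁆ =
      (⁅commutator X, (⊤ : Subgroup X)⁆ : Subgroup X).map (QuotientGroup.mk' N) := by
    simp only [commutator_def, map_commutator, ht]
  have h2 := class_two_aux (a := (a : X ⧸ N)) (b := (b : X ⧸ N)) (hX.to_quotient N)
    ((Nat.card_le_card_of_surjective _ hs).trans h64)
    (by
      have := congrArg (Subgroup.map (QuotientGroup.mk' N)) h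
      rw [ht, MonoidHom.map_closure] at this
      simpa [Set.image_pair] using this)
    (fun M hM h2 => hn _ (Characteristic.comap_quotient_mk hM)
      (by rwa [index_comap_of_surjective _ hs]))
    (by rw [h1, ← ht, ← map_commutator, Subgroup.map_eq_bot_iff, QuotientGroup.ker_mk'])
  rwa [h1, Subgroup.map_eq_bot_iff, QuotientGroup.ker_mk'] at h2

end H

theorem closure_top (h : closure ({a, b} : Set G) = R) (ha : a ∈ R) (hb : b ∈ R) :
    closure ({⟨a, ha⟩, ⟨b, hb⟩} : Set R) = ⊤ := by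
  apply map_injective R.subtype_injective
  rw [MonoidHom.map_closure, ← MonoidHom.range_eq_map, range_subtype]
  simpa [Set.image_pair] using h

theorem class_two (hR : IsPGroup 2 R) (h64 : Nat.card R ≤ 64) (h : closure ({a, b} : Set G) = R)
    (hg : g ∈ Nor R) (ho : ¬ 2 ∣ orderOf g) (hc : g ∉ Cen R) : ⁅⁅R, R⁆, R⁆ = ⊥ := by
  have ha : a ∈ R := h ▸ subset_closure (by simp)
  have hb : b ∈ R := h ▸ subset_closure (by simp)
  have h1 := class_two_type hR h64 (closure_top h ha hb) fun M hM h2 => by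
    have h3 := noInv hR (card_le_four hR h) hg ho hc (H := M.map R.subtype) (map_subtype_le _)
      (H2.le_normalizer_map_subtype_of_characteristic le_rfl M hg) (idx_of_card (map_subtype_le _)
        (by rw [card_subtype, ← M.card_mul_index, h2, mul_comm]))
    have h4 := card_le_of_le h3
    rw [card_subtype, ← M.card_mul_index, h2] at h4
    have : 0 < Nat.card M := Nat.card_pos
    omega
  have h2 := congrArg (Subgroup.map R.subtype) h1
  simpa only [commutator_def, map_commutator, ← MonoidHom.range_eq_map, range_subtype,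
    Subgroup.map_bot] using h2

/-- in a two-generated group of class at most two the derived group is cyclic -/
theorem comm_eq_zpowers (h : closure ({a, b} : Set G) = R) (h2 : ⁅⁅R, R⁆, R⁆ = ⊥) :
    ⁅R, R⁆ = zpowers ⁅a, b⁆ := by
  have ha : a ∈ R := h ▸ subset_closure (by simp)
  have hb : b ∈ R := h ▸ subset_closure (by simp)
  have hc := commutator_mem_commutator ha hb
  have h3 : ∀ r ∈ R, r ∈ Nor (zpowers ⁅a, b⁆) := fun r hr => mem_Nor_zpowers (by
    rw [← (H5.commute_of_commutator_eq_bot h2 hc hr).eq, mul_inv_cancel_right]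
    exact mem_zpowers _)
  refine le_antisymm ?_ (zpowers_le.2 hc)
  conv_lhs => rw [← h]
  exact comm_closure_le (h3 a ha) (h3 b hb) (mem_zpowers _)

end H85.TG
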