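import Mathlib
import Cfsg.Agent.Lib.TG.Grp

/-! The structure of `[Q, g]` for an obstruction in a two-generated group of order at most 64. -/

set_option autoImplicit false
set_option linter.unusedSectionVars false
set_option linter.style.haveILetI false

open Subgroup H86
open scoped commutatorElement

namespace H85.TG

/-- free reduction -/
scoped macro "grp" : tactic => `(tactic| simp only [commutatorElement_def, pow_succ, pow_zero,
  one_mul, mul_one, mul_inv_rev, inv_inv, mul_assoc, mul_inv_cancel_left, inv_mul_cancel_left,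
  mul_inv_cancel, inv_mul_cancel])

variable {G : Type*} [Group G] [Finite G] {D Q K N M H : Subgroup G} {a b c g r s t x y z ρ : G}

theorem mem_zpowers_inv (h : ρ ^ 2 = 1) (hx : x ∈ zpowers ρ) : x = 1 ∨ x = ρ := by
  obtain ⟨k, rfl⟩ := mem_zpowers_iff.1 hx
  have h2 : ρ ^ (2 : ℤ) = 1 := by exact_mod_cast h
  rcases Int.even_or_odd' k with ⟨j, rfl | rfl⟩
  · left; rw [zpow_mul, h2, one_zpow]
  · right; rw [zpow_add, zpow_mul, h2, one_zpow, one_mul, zpow_one]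

theorem comm_zpowers (hg : g ∈ Nor N) (h : x⁻¹ * g * x * g⁻¹ ∈ N) :
    ∀ a ∈ zpowers g, x⁻¹ * a * x * a⁻¹ ∈ N := by
  intro a ha
  obtain ⟨n, rfl⟩ := (mem_powers_iff_mem_zpowers.2 ha : a ∈ Submonoid.powers g)
  clear ha
  induction n with
  | zero => simpa using N.one_mem
  | succ n ih =>
    have : x⁻¹ * g ^ (n + 1) * x * (g ^ (n + 1))⁻¹ =
        x⁻¹ * g * x * g⁻¹ * (g * (x⁻¹ * g ^ n * x * (g ^ n)⁻¹) * g⁻¹) := by group
    simp only at ih ⊢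
    rw [this]
    exact N.mul_mem h (conj_mem_of_Nor hg ih)

/-- `[Q, g]` -/
abbrev RR (Q : Subgroup G) (g : G) : Subgroup G := ⁅Q, zpowers g⁆

/-- `C_Q(g)` -/
abbrev CC (Q : Subgroup G) (g : G) : Subgroup G := Q ⊓ Cen (zpowers g)

theorem mem_Cen_zp : x ∈ Cen (zpowers g) ↔ g * x * g⁻¹ = x := by
  rw [Cen, H2.centralizer_zpowers, mem_centralizer_singleton_iff, mul_inv_eq_iff_eq_mul, eq_comm]

theorem mem_CC : c ∈ CC Q g ↔ c ∈ Q ∧ g * c * g⁻¹ = c := by rw [mem_inf, mem_Cen_zp]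

namespace Ob2

theorem act (h : Ob2 D Q g s) (hx : x ∈ Q) :
    s * g * s⁻¹ * x * (s * g * s⁻¹)⁻¹ = g⁻¹ * x * g := by
  have := mem_Cen_iff_conj.1 h.inv _ (conj_mem_of_Nor' h.gN hx)
  rw [← this]; group

theorem sC (h : Ob2 D Q g s) : s ∈ Nor (CC Q g) := mem_Nor_of fun c hc => by
  have h1 := conj_mem_of_Nor h.sN hc.1
  refine mem_CC.2 ⟨h1, ?_⟩
  have h2 := h.act h1
  calc g * (s * c * s⁻¹) * g⁻¹ = g * (s * (g * c * g⁻¹) * s⁻¹) * g⁻¹ := by rw [(mem_CC.1 hc).2]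
    _ = g * (s * g * s⁻¹ * (s * c * s⁻¹) * (s * g * s⁻¹)⁻¹) * g⁻¹ := by group
    _ = _ := by rw [h2]; group

theorem s2 (h : Ob2 D Q g s) : s ^ 2 ∈ Q :=
  (h.two _ (D.pow_mem h.sD 2) ((Nor Q).pow_mem h.sN 2)).resolve_right
    (by simpa [pow_two] using h.sQ)

theorem g3' (h : Ob2 D Q g s) (hx : x ∈ Q) : g * (g * x * g⁻¹) * g⁻¹ = g⁻¹ * x * g := by
  have := mem_Cen_iff_conj.1 h.g3 _ (conj_mem_of_Nor' h.gN hx)
  rw [← this]; grp

theorem adjust (h : Ob2 D Q g s) (hD : IsPGroup 2 D) :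
    ∃ s', Ob2 D Q g s' ∧ s' ^ 2 ∈ CC Q g := by
  have hN : ∀ y ∈ Nor Q, y ∈ Nor (Q ⊓ Cen Q) := fun y hy => mem_Nor_inf hy (Nor_le_Nor_Cen Q hy)
  have hC : ∀ y ∈ Nor Q, ∀ k ∈ Cen Q, y * k * y⁻¹ ∈ Cen Q := fun y hy k hk =>
    conj_mem_of_Nor (Nor_le_Nor_Cen Q hy) hk
  have h1 : (s ^ 2)⁻¹ * g * s ^ 2 * g⁻¹ ∈ Q ⊓ Cen Q := by
    refine mem_inf.2 ⟨?_, ?_⟩
    · have := Q.mul_mem (Q.inv_mem h.s2) (conj_mem_of_Nor h.gN h.s2)
      simpa only [mul_assoc] using this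
    · have := hC _ ((Nor Q).mul_mem ((Nor Q).inv_mem ((Nor Q).pow_mem h.sN 2)) h.gN) _
        ((Cen Q).mul_mem h.inv ((Cen Q).inv_mem (hC _ ((Nor Q).mul_mem ((Nor Q).inv_mem h.gN)
          h.sN) _ h.inv)))
      convert this using 1
      simp only [pow_two]; group
  obtain ⟨n, hn, h2⟩ := H2.exists_mul_mem_centralizer (zpowers_le.2 (hN g h.gN))
    (cop h.odd ((hD.to_le h.le).to_le inf_le_left)) (Or.inl (H2.isSolvable_zpowers g))
    (comm_zpowers (hN g h.gN) h1)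
  have h3 : s ^ 2 * n ∈ CC Q g := ⟨Q.mul_mem h.s2 hn.1, h2⟩
  have hw := conj_mem_of_Nor (hN g h.gN) ((Q ⊓ Cen Q).inv_mem hn)
  have hv := conj_mem_of_Nor' (hN g h.gN) hn
  refine ⟨s * (g * n⁻¹ * g⁻¹), ⟨h.le, h.cen, h.gN, h.odd, h.gC, h.g3, D.mul_mem h.sD (h.le hw.1),
    (Nor Q).mul_mem h.sN (le_normalizer hw.1), fun h4 => h.sQ ((Q.mul_mem_cancel_right hw.1).1 h4),
    fun m hm hmN => (h.two m hm hmN).imp_right fun h4 => ?_, ?_⟩, ?_⟩
  · have := Q.mul_mem h4 (conj_mem_of_Nor h.sN (Q.inv_mem hw.1))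
    convert this using 1; group
  · have := (Cen Q).mul_mem (hC _ h.sN _ ((Cen Q).mul_mem hw.2 (hC _ h.gN _ ((Cen Q).inv_mem hw.2))))
      h.inv
    convert this using 1; group
  · have h4 : n⁻¹ * (s⁻¹ * n * s) ∈ CC Q g := by
      have := (CC Q g).mul_mem ((CC Q g).inv_mem h3) (conj_mem_of_Nor' h.sC h3)
      convert this using 1; simp only [pow_two]; group
    have hw' := conj_mem_of_Nor (hN g h.gN) hn
    have h5 : g * n * g⁻¹ * (g⁻¹ * n * g) * n ∈ CC Q g := by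
      refine mem_CC.2 ⟨Q.mul_mem (Q.mul_mem hw'.1 hv.1) hn.1, ?_⟩
      calc _ = (g * (g * n * g⁻¹) * g⁻¹) * n * (g * n * g⁻¹) := by group
        _ = _ := by rw [h.g3' hn.1, mem_Cen.1 hw'.2 _ (Q.mul_mem hv.1 hn.1), ← mul_assoc]
    have h11 : ∀ ζ ∈ Q ⊓ Cen Q, s⁻¹ * ζ * s = s * ζ * s⁻¹ := fun ζ hζ => by
      calc s⁻¹ * ζ * s = s⁻¹ * (ζ * s ^ 2) * s⁻¹ := by simp only [pow_two]; group
        _ = _ := by rw [← mem_Cen.1 hζ.2 _ h.s2]; simp only [pow_two]; group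
    have h6 : s⁻¹ * (g * n * g⁻¹) * s = g⁻¹ * n * g * (n⁻¹ * (s⁻¹ * n * s)) := by
      have h7 : g⁻¹ * (n⁻¹ * (s⁻¹ * n * s)) * g = n⁻¹ * (s⁻¹ * n * s) := by
        conv_lhs => rw [← (mem_CC.1 h4).2]
        group
      rw [h11 _ hw', ← h7, h11 _ hn]
      calc _ = s * g * s⁻¹ * (s * n * s⁻¹) * (s * g * s⁻¹)⁻¹ := by group
        _ = _ := by rw [h.act (conj_mem_of_Nor h.sN hn.1)]; group
    have := (CC Q g).mul_mem h3 ((CC Q g).inv_mem ((CC Q g).mul_mem h5 h4))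
    convert this using 1
    rw [mul_assoc _ n (n⁻¹ * _), ← mem_Cen.1 hn.2 _ h4.1]
    calc (s * (g * n⁻¹ * g⁻¹)) ^ 2 = s ^ 2 * (s⁻¹ * (g * n * g⁻¹) * s)⁻¹ * (g * n⁻¹ * g⁻¹) := by
          simp only [pow_two]; group
      _ = _ := by rw [h6]; grp

end Ob2

/-- the standing hypotheses -/
structure Ctx (D Q : Subgroup G) (g s z : G) : Prop extends Ob2 D Q g s where
  sq : s ^ 2 ∈ CC Q g
  hD : IsPGroup 2 D
  h64 : Nat.card D ≤ 64
  zc : z ∈ center G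
  zD : z ∈ D
  z1 : z ≠ 1
  z2 : z ^ 2 = 1
  h8 : (Fr Q ⊔ zpowers z).relIndex Q ≤ 8

/-- `R` is a four-group or a quaternion group centralised by `C` -/
structure Small (R C : Subgroup G) (ρ : G) : Prop where
  sq : ρ ^ 2 = 1
  fr : Fr R = zpowers ρ
  pow : ∀ r ∈ R, r ∉ Fr R → r ^ 2 = ρ
  mem : ρ ∈ C
  cen : R ≤ Cen C

theorem gen2' {R : Subgroup G} (hR : IsPGroup 2 R) (h4 : Nat.card R ≤ 4 * Nat.card (Fr R))
    (hx : x ∈ R) (hy : y ∈ R) (h1 : x ∉ Fr R) (h2 : y ∉ Fr R) (h3 : y * x⁻¹ ∉ Fr R) :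
    closure ({x, y} : Set G) = R :=
  gen2 hR h4 hx hy (M := Fr R ⊔ zpowers x) le_sup_left (mem_sup_right (mem_zpowers x)) h1 fun h =>
    h3 (idx_of_card le_sup_left (by rw [card_sup_eq hR le_rfl Fr_le hx h1, mul_comm]) _ h _
      (mem_sup_right (inv_mem (mem_zpowers x))) h2 fun h => h1 (inv_mem_iff.1 h))

namespace Ctx

theorem hQ (h : Ctx D Q g s z) : IsPGroup 2 Q := h.hD.to_le h.le

theorem Q32 (h : Ctx D Q g s z) : Nat.card Q ≤ 32 := by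
  have := two_card_le (lt_of_le_of_ne h.le fun e => h.sQ (e ▸ h.sD))
  have := h.h64
  omega

theorem zcomm (h : Ctx D Q g s z) (y : G) : y * z = z * y := mem_center_iff.1 h.zc y

theorem zC (h : Ctx D Q g s z) : z ∈ CC Q g :=
  ⟨h.cen ⟨h.zD, fun y _ => h.zcomm y⟩, fun y _ => h.zcomm y⟩

theorem A (h : Ctx D Q g s z) : zpowers g ≤ Nor Q := zpowers_le.2 h.gN

theorem R_le (h : Ctx D Q g s z) : RR Q g ≤ Q := H2.commutator_le_of_le_normalizer h.A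

theorem hR (h : Ctx D Q g s z) : IsPGroup 2 (RR Q g) := h.hQ.to_le h.R_le

theorem gR : g ∈ Nor (RR Q g) := normalizer_commutator_ge_right _ _ (mem_zpowers g)

theorem QR : Q ≤ Nor (RR Q g) := normalizer_commutator_ge_left _ _

theorem RA (h : Ctx D Q g s z) : ⁅RR Q g, zpowers g⁆ = RR Q g :=
  H2.commutator_commutator_eq h.A (cop h.odd h.hQ)

theorem dec (h : Ctx D Q g s z) (hx : x ∈ Q) : ∃ r ∈ RR Q g, ∃ c ∈ CC Q g, x = r * c :=
  H2.exists_commutator_mul_centralizer h.A (cop h.odd h.hQ) (Or.inl (H2.isSolvable_zpowers g)) hx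

theorem sR (h : Ctx D Q g s z) : s ∈ Nor (RR Q g) := by
  have h1 : RR Q g ≤ (RR Q g).comap (MulAut.conj s).toMonoidHom := commutator_le.2 fun x hx y hy => by
    obtain ⟨k, rfl⟩ := mem_zpowers_iff.1 hy
    have h2 : Act Q (s * g * s⁻¹) g⁻¹ := fun q hq => by rw [h.act hq, inv_inv]
    have h3 : s * g ^ k * s⁻¹ * (s * x⁻¹ * s⁻¹) * (s * g ^ k * s⁻¹)⁻¹ =
        g⁻¹ ^ k * (s * x⁻¹ * s⁻¹) * (g⁻¹ ^ k)⁻¹ := by
      obtain ⟨n, hn⟩ := (mem_powers_iff_mem_zpowers.2 hy : _ ∈ Submonoid.powers g)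
      simp only at hn
      rw [inv_zpow, ← hn, ← conj_pow, ← inv_pow g]
      exact h2.pow ((Nor Q).mul_mem ((Nor Q).mul_mem h.sN h.gN) ((Nor Q).inv_mem h.sN)) n _
        (conj_mem_of_Nor h.sN (Q.inv_mem hx))
    have h4 : s * ⁅x, g ^ k⁆ * s⁻¹ = ⁅s * x * s⁻¹, g⁻¹ ^ k⁆ := by
      calc _ = s * x * s⁻¹ * (s * g ^ k * s⁻¹ * (s * x⁻¹ * s⁻¹) * (s * g ^ k * s⁻¹)⁻¹) := by grp
        _ = _ := by rw [h3]; grp
    rw [mem_comap, MulEquiv.coe_toMonoidHom, MulAut.conj_apply, h4]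
    exact commutator_mem_commutator (conj_mem_of_Nor h.sN hx) (zpow_mem (inv_mem (mem_zpowers g)) k)
  exact mem_Nor_of fun n hn => h1 hn

theorem gCR (h : Ctx D Q g s z) : g ∉ Cen (RR Q g) := fun h1 => h.gC (by
  have h2 : RR Q g = ⊥ := by
    rw [← h.RA, commutator_comm, commutator_eq_bot_iff_le_centralizer]; exact zpowers_le.2 h1
  rw [RR, commutator_comm, commutator_eq_bot_iff_le_centralizer] at h2
  exact h2 (mem_zpowers g))

theorem fpf (h : Ctx D Q g s z) (hN : ⁅RR Q g, RR Q g⁆ ≤ N) (hg : g ∈ Nor N) (hx : x ∈ RR Q g)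
    (h1 : x⁻¹ * g * x * g⁻¹ ∈ N) : x ∈ N := by
  refine H2.mem_of_mem_commutator_of_fixed (zpowers_le.2 gR) (zpowers_le.2 hg) hN
    ((cop h.odd h.hR).coprime_dvd_right (relIndex_dvd_card _ _)) (h.RA.symm ▸ hx) fun a ha => ?_
  simpa [commutatorElement_def] using comm_zpowers hg h1 a ha

theorem gRR : g ∈ Nor (⁅RR Q g, RR Q g⁆ : Subgroup G) :=
  H2.le_normalizer_commutator le_rfl le_rfl gR

theorem CR (h : Ctx D Q g s z) (hx : x ∈ RR Q g) (hc : x ∈ CC Q g) : x ∈ ⁅RR Q g, RR Q g⁆ :=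
  h.fpf le_rfl gRR hx (by
    rw [mul_assoc, mul_assoc, ← mul_assoc g, (mem_CC.1 hc).2, inv_mul_cancel]; exact one_mem _)

theorem RF (h : Ctx D Q g s z) : ⁅RR Q g, RR Q g⁆ ≤ Fr (RR Q g) :=
  H5.commutator_le_map_frattini h.hR

theorem idx (h : Ctx D Q g s z) (hN : ⁅RR Q g, RR Q g⁆ ≤ N) (hle : N ≤ RR Q g) (hg : g ∈ Nor N) :
    Nat.card (RR Q g) = Nat.card N ∨ Nat.card (RR Q g) = 4 * Nat.card N ∨
      Nat.card (RR Q g) = 16 * Nat.card N := by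
  classical
  haveI := H2.normal_subgroupOf_of_commutator_le hN
  let ψ := H2.sectionAut (zpowers_le.2 (gR (Q := Q))) (zpowers_le.2 hg)
  haveI := Fintype.ofFinite (RR Q g ⧸ N.subgroupOf (RR Q g))
  haveI : Fact (Nat.Prime 3) := ⟨Nat.prime_three⟩
  have h1 := Equiv.Perm.card_fixedPoints_modEq (p := 3) (n := 1)
    (f := (MulAction.toEndHom (ψ ⟨g, mem_zpowers g⟩) :
      Function.End (RR Q g ⧸ N.subgroupOf (RR Q g)))) (by
      rw [pow_one, ← map_pow, ← map_pow, MonoidHom.mem_ker.1 ((H2.mem_ker_sectionAut _ _ _).2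
        fun x hx => ?_), map_one]
      change ⁅x, g ^ 3⁆ ∈ N
      rw [commutatorElement_eq_one_iff_mul_comm.2 (mem_Cen.1 h.g3 x (h.R_le hx))]
      exact one_mem _)
  have h2 : Nat.card (Function.fixedPoints (MulAction.toEndHom (ψ ⟨g, mem_zpowers g⟩) :
      Function.End (RR Q g ⧸ N.subgroupOf (RR Q g)))) = 1 := by
    refine Nat.card_eq_one_iff_exists.2 ⟨⟨1, map_one (ψ _)⟩, fun ⟨v, hv⟩ => Subtype.ext ?_⟩
    induction v using QuotientGroup.induction_on with | _ v =>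
    refine (QuotientGroup.eq_one_iff _).2 (h.fpf hN hg v.2 ?_)
    simpa [commutatorElement_def] using (H2.sectionAut_mk_eq_iff _ _ _ _).1 hv
  obtain ⟨n, hn⟩ := h.hR.index (N.subgroupOf (RR Q g))
  rw [Fintype.card_eq_nat_card, Fintype.card_eq_nat_card, h2, ← index_eq_card, hn] at h1
  have h3 := H1.card_mul_relIndex_of_le hle
  rw [relIndex, hn] at h3
  have h4 := (card_le_of_le h.R_le).trans h.Q32
  have h5 : 0 < Nat.card N := Nat.card_pos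
  have h6 : n ≤ 5 := (Nat.pow_le_pow_iff_right (by norm_num : 1 < 2)).1 (by nlinarith)
  unfold Nat.ModEq at h1
  interval_cases n <;> omega

theorem not_le_Fr (h : Ctx D Q g s z) : ¬ RR Q g ≤ Fr (RR Q g) := fun h1 => h.gCR (by
  rw [← H2.eq_of_sup_frattini (H := ⊥) (K := RR Q g) bot_le (by simpa using h1), Cen_bot]; trivial)

theorem card_z (h : Ctx D Q g s z) : Nat.card (zpowers z) = 2 := by
  rw [Nat.card_zpowers, orderOf_eq_prime h.z2 h.z1]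

theorem four (h : Ctx D Q g s z) : Nat.card (RR Q g) = 4 * Nat.card (Fr (RR Q g)) := by
  have h0 : 0 < Nat.card (Fr (RR Q g)) := Nat.card_pos
  have h32 := h.Q32
  have h8 := h.h8
  rcases h.idx h.RF Fr_le (Nor_Fr le_rfl gR) with h1 | h1 | h1
  · exact absurd (eq_of_le_of_card_ge Fr_le h1.le).ge h.not_le_Fr
  · exact h1
  exfalso
  have h2 := H1.card_mul_relIndex_of_le (sup_le Fr_le (zpowers_le.2 h.zC.1) : Fr Q ⊔ zpowers z ≤ Q)
  by_cases e : RR Q g = Q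
  · have h3 : z ∈ Fr Q := by
      have := h.RF (h.CR (e.symm ▸ h.zC.1) h.zC)
      rwa [e] at this
    rw [sup_eq_left.2 (zpowers_le.2 h3)] at h2 h8
    rw [e] at h1 h0
    nlinarith
  have h3 := two_card_le (lt_of_le_of_ne h.R_le e)
  have h4 : Fr (RR Q g) = ⊥ := card_eq_one.1 (by omega)
  have h5 : z ∉ RR Q g := fun h5 => h.z1 (by simpa [h4] using h.RF (h.CR h5 h.zC))
  have hN : z ∈ Nor (RR Q g) := QR h.zC.1
  have h6 := H5.card_sup_zpowers Nat.prime_two hN h5 (h.z2 ▸ one_mem _)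
  have h7 := eq_of_le_of_card_ge (sup_le h.R_le (zpowers_le.2 h.zC.1)) (by omega)
  have h9 : Fr Q ≤ zpowers z := Fr_le_of_sq h.hQ fun d hd => by
    obtain ⟨k, hk, i, rfl⟩ := (H5.mem_sup_zpowers_iff hN).1 (h7.ge hd)
    have h10 : k ^ 2 = 1 := by simpa [h4] using H5.pow_mem_map_frattini h.hR hk
    rw [(Commute.zpow_right (h.zcomm k) i).mul_pow, h10, one_mul]
    exact pow_mem (zpow_mem (mem_zpowers z) i) 2
  rw [sup_eq_right.2 h9] at h2 h8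
  rw [h.card_z] at h2
  omega

theorem inv_le (h : Ctx D Q g s z) (hH : H ≤ RR Q g) (hg : g ∈ Nor H) (h1 : ¬ RR Q g ≤ H) :
    H ≤ Fr (RR Q g) := eq_Fr h.hR h.four.le gR h.odd h.gCR hH hg h1

theorem le_inv (h : Ctx D Q g s z) (hH : H ≤ RR Q g) (hg : g ∈ Nor H) (h1 : Idx H (RR Q g)) :
    RR Q g ≤ H := noInv h.hR h.four.le gR h.odd h.gCR hH hg h1

theorem RQ (h : Ctx D Q g s z) (hr : r ∈ RR Q g) (hx : x ∈ Q) :
    x * r * x⁻¹ * r⁻¹ ∈ Fr (RR Q g) := by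
  have h1 := comm_lt h.hQ h.R_le QR fun e => h.not_le_Fr (by rw [e]; exact bot_le)
  have := (Fr (RR Q g)).inv_mem (h.inv_le h1.le (H2.le_normalizer_commutator
    (A := Nor (RR Q g) ⊓ Nor Q) inf_le_left inf_le_right ⟨gR, h.gN⟩) h1.not_ge (commutator_mem_commutator hr hx))
  rwa [commutatorElement_inv] at this

theorem exists_a (h : Ctx D Q g s z) : ∃ a ∈ RR Q g, s * a * s⁻¹ * a⁻¹ ∉ Fr (RR Q g) := by
  by_contra h1
  push Not at h1
  haveI := H2.normal_subgroupOf_of_commutator_le h.RF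
  let ψ := H2.sectionAut (le_refl (Nor (RR Q g))) (Nor_Fr le_rfl)
  have hk : ∀ k : Nor (RR Q g), ψ k = 1 ↔ ∀ x ∈ RR Q g, ⁅x, (k : G)⁆ ∈ Fr (RR Q g) := fun k =>
    H2.mem_ker_sectionAut _ _ k
  have hC : ∀ k : Nor (RR Q g), (k : G) ∈ Cen Q → ψ k = 1 := fun k hk' => (hk k).2 fun x hx => by
    rw [commutatorElement_eq_one_iff_mul_comm.2 (mem_Cen.1 hk' x (h.R_le hx))]; exact one_mem _
  have h2 : ψ ⟨s, h.sR⟩ = 1 := (hk _).2 fun x hx => by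
    rw [← commutatorElement_inv]; exact inv_mem (h1 x hx)
  have h3 := hC (⟨s, h.sR⟩ * ⟨g, gR⟩ * ⟨s, h.sR⟩⁻¹ * ⟨g, gR⟩) h.inv
  have h4 := hC (⟨g, gR⟩ ^ 3) h.g3
  simp only [map_mul, map_inv, h2, _root_.inv_one, one_mul, mul_one] at h3
  rw [map_pow, pow_succ, pow_two, h3, one_mul] at h4
  exact h.not_le_Fr fun x hx => h.fpf h.RF (Nor_Fr le_rfl gR) hx (by
    simpa [commutatorElement_def] using (hk _).1 h4 x⁻¹ (inv_mem hx))

theorem a_not (h : Ctx D Q g s z) (h1 : s * a * s⁻¹ * a⁻¹ ∉ Fr (RR Q g)) : a ∉ Fr (RR Q g) :=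
  fun h2 => h1 (mul_mem (conj_mem_of_Nor (Nor_Fr le_rfl h.sR) h2) (inv_mem h2))

theorem gen (h : Ctx D Q g s z) (ha : a ∈ RR Q g) (h1 : s * a * s⁻¹ * a⁻¹ ∉ Fr (RR Q g)) :
    closure ({a, s * a * s⁻¹} : Set G) = RR Q g :=
  gen2' h.hR h.four.le ha (conj_mem_of_Nor h.sR ha) (h.a_not h1)
    (fun h2 => h.a_not h1 ((mem_Nor.1 (Nor_Fr le_rfl h.sR) a).2 h2)) h1

theorem cl2 (h : Ctx D Q g s z) : ⁅⁅RR Q g, RR Q g⁆, RR Q g⁆ = ⊥ := by
  obtain ⟨a, ha, h1⟩ := h.exists_a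
  exact class_two h.hR ((card_le_of_le h.R_le).trans (h.Q32.trans (by norm_num))) (h.gen ha h1)
    gR h.odd h.gCR

theorem dich (h : Ctx D Q g s z) : ⁅RR Q g, RR Q g⁆ = Fr (RR Q g) ∨
    Nat.card (RR Q g) = 16 * Nat.card (⁅RR Q g, RR Q g⁆ : Subgroup G) := by
  have h0 := h.four
  rcases h.idx le_rfl (h.RF.trans Fr_le) gRR with h1 | h1 | h1
  · exact absurd ((eq_of_le_of_card_ge (h.RF.trans Fr_le) h1.le).ge.trans h.RF) h.not_le_Fr
  · exact Or.inl (eq_of_le_of_card_ge h.RF (by omega))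
  · exact Or.inr h1

theorem small (h : Ctx D Q g s z) (e : ⁅RR Q g, RR Q g⁆ = Fr (RR Q g)) :
    ∃ ρ, Small (RR Q g) (CC Q g) ρ := by
  obtain ⟨a, ha, h1⟩ := h.exists_a
  have hb := conj_mem_of_Nor h.sR ha
  have h2 := comm_eq_zpowers (h.gen ha h1) h.cl2
  have hz : ∀ w ∈ Fr (RR Q g), ∀ r ∈ RR Q g, Commute w r := fun w hw r hr =>
    H5.commute_of_commutator_eq_bot h.cl2 (e.ge hw) hr
  rw [e] at h2
  set ρ := ⁅a, s * a * s⁻¹⁆
  have hρ : ρ ∈ Fr (RR Q g) := h2 ▸ mem_zpowers ρ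
  have hsq : ∀ r ∈ RR Q g, r ^ 2 ∈ Fr (RR Q g) := fun r hr => H5.pow_mem_map_frattini h.hR hr
  have h3 : ρ ^ 2 = 1 := by
    rw [← H5.commutator_pow_left (hz _ hρ a ha).symm]
    exact commutatorElement_eq_one_iff_commute.2 (hz _ (hsq a ha) _ hb)
  have hF : ∀ w ∈ Fr (RR Q g), w = 1 ∨ w = ρ := fun w hw => mem_zpowers_inv h3 (h2 ▸ hw)
  have hgF : g ∈ Nor (Fr (RR Q g)) := Nor_Fr le_rfl gR
  refine ⟨ρ, h3, h2, fun r hr hrF => (hF _ (hsq r hr)).elim (fun h4 => ?_) id,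
    mem_CC.2 ⟨h.R_le (Fr_le hρ), (hF _ (conj_mem_of_Nor hgF hρ)).elim (fun h4 => ?_) id⟩,
    fun r hr c hc => ?_⟩
  · have hr1 := conj_mem_of_Nor gR hr
    have hr2 := conj_mem_of_Nor' gR hr
    have h5 := gen2' h.hR h.four.le hr hr1 hrF (fun h5 => hrF ((mem_Nor.1 hgF r).2 h5)) fun h5 =>
      hrF (h.fpf h.RF hgF hr (by
        have := conj_mem_of_Nor' (Nor_Fr QR (h.R_le hr)) h5
        convert this using 1; grp))
    have h6 : r * (g * r * g⁻¹) * (g⁻¹ * r * g) ∈ Fr (RR Q g) := by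
      refine h.fpf h.RF hgF (mul_mem (mul_mem hr hr1) hr2) ?_
      have h7 := h.RF (commutator_mem_commutator (inv_mem (mul_mem hr1 hr2)) (inv_mem hr))
      convert h7 using 1
      calc _ = (r * (g * r * g⁻¹) * (g⁻¹ * r * g))⁻¹ *
            (g * r * g⁻¹ * (g * (g * r * g⁻¹) * g⁻¹) * r) := by grp
        _ = _ := by rw [h.g3' (h.R_le hr)]; grp
    have h7 : (r * (g * r * g⁻¹)) ^ 2 = 1 := by
      have h8 : (g⁻¹ * r * g)⁻¹ ^ 2 = 1 := by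
        calc _ = g⁻¹ * (r ^ 2)⁻¹ * g := by grp
          _ = 1 := by rw [h4]; simp
      rw [← mul_inv_cancel_right (r * (g * r * g⁻¹)) (g⁻¹ * r * g),
        (hz _ h6 _ (inv_mem hr2)).mul_pow, h8, mul_one]
      rcases hF _ h6 with h9 | h9 <;> rw [h9]
      · exact one_pow 2
      · exact h3
    have h8 : ⁅r, g * r * g⁻¹⁆ = 1 := by
      calc _ = (r * (g * r * g⁻¹)) ^ 2 * ((g * r * g⁻¹)⁻¹ * (r ^ 2)⁻¹ * (g * r * g⁻¹)) *
            (g * (r ^ 2)⁻¹ * g⁻¹) := by grp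
        _ = 1 := by rw [h7, h4, _root_.inv_one]; grp
    have h9 := comm_eq_zpowers h5 h.cl2
    rw [e, h8, zpowers_one_eq_bot] at h9
    rw [h4, eq_comm, ← mem_bot, ← h9]; exact hρ
  · have : ρ = 1 := by simpa [mul_inv_eq_iff_eq_mul] using h4
    rw [this]; simp
  · have hk : ∀ x ∈ RR Q g, x ∉ RR Q g ⊓ Cen (zpowers c) → c * x * c⁻¹ = ρ * x := fun x hx h4 => by
      rcases hF _ (h.RQ hx hc.1) with h5 | h5
      · exact absurd ⟨hx, mem_Cen_zp.2 (mul_inv_eq_one.1 h5)⟩ h4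
      · rw [← h5, inv_mul_cancel_right]
    have h4 := h.le_inv (H := RR Q g ⊓ Cen (zpowers c)) inf_le_left (mem_Nor_inf gR (Nor_le_Nor_Cen _
      (mem_Nor_zpowers (by rw [(mem_CC.1 hc).2]; exact mem_zpowers c)))) fun x hx y hy h4 h5 =>
        ⟨mul_mem hx hy, mem_Cen_zp.2 (by
          calc c * (x * y) * c⁻¹ = c * x * c⁻¹ * (c * y * c⁻¹) := by grp
            _ = ρ * (x * ρ) * y := by rw [hk x hx h4, hk y hy h5]; grp
            _ = x * y := by rw [← (hz _ hρ x hx).eq, ← mul_assoc, ← pow_two, h3, one_mul])⟩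
    exact mul_inv_eq_iff_eq_mul.1 (mem_Cen_zp.1 (h4 hr).2)

end Ctx

end H85.TG
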