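import Mathlib
import Cfsg.Agent.Lib.TG.Str

/-! The obstruction at a normal subgroup of index two. -/

set_option autoImplicit false
set_option linter.unusedSectionVars false
set_option linter.style.haveILetI false

open Subgroup H86
open scoped commutatorElement

namespace H85.TG

variable {G : Type*} [Group G] [Finite G] {D Q K N M H : Subgroup G} {a b c d g n r s t x y z ρ : G}

/-- `D` has order 64 and a central cyclic subgroup of order 4 with semidihedral quotient -/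
def Tame (D : Subgroup G) : Prop :=
  ∃ w ∈ D, ∃ a ∈ D, ∃ b ∈ D, (∀ d ∈ D, d * w = w * d) ∧ orderOf w = 4 ∧ Nat.card D = 64 ∧
    a ^ 4 ∉ zpowers w ∧ a ^ 8 = 1 ∧ b ∉ zpowers w ∧ b ^ 2 ∈ zpowers w ∧
    b * a * b⁻¹ * (a ^ 3)⁻¹ ∈ zpowers w

/-- the squares of `D'` form a central subgroup of order two different from `⟨z⟩` -/
def PP (D : Subgroup G) (z : G) : Prop :=
  ∃ u ∈ ⁅D, D⁆, u ^ 2 ≠ 1 ∧ (u ^ 2) ^ 2 = 1 ∧ (∀ d ∈ D, d * u ^ 2 = u ^ 2 * d) ∧ u ^ 2 ≠ z ∧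
    ∀ h ∈ ⁅D, D⁆, h ^ 2 ∈ zpowers (u ^ 2)

theorem le_orderOf (hD : IsPGroup 2 D) (hd : d ∈ D) {j : ℕ} (h : d ^ 2 ^ j ≠ 1) :
    2 ^ (j + 1) ≤ orderOf d := by
  obtain ⟨k, hk⟩ := IsPGroup.iff_orderOf.1 hD ⟨d, hd⟩
  rw [orderOf_mk] at hk
  rw [hk]
  refine Nat.pow_le_pow_right two_pos (Nat.succ_le_of_lt (not_le.1 fun h1 => h ?_))
  exact orderOf_dvd_iff_pow_eq_one.1 (hk ▸ pow_dvd_pow 2 h1)

namespace Ctx

theorem NR (h : Ctx D Q g s z) (hn : n ∈ D) (hN : n ∈ Nor Q) : n ∈ Nor (RR Q g) :=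
  (h.two n hn hN).elim (fun h1 => QR h1) fun h1 => by
    simpa using (Nor (RR Q g)).mul_mem (QR h1) h.sR

theorem moves (h : Ctx D Q g s z) (ha : a ∈ RR Q g) (hn : n ∈ D) (hN : n ∈ Nor Q) (hQ : n ∉ Q) :
    n * a * n⁻¹ * (s * a * s⁻¹)⁻¹ ∈ Fr (RR Q g) := by
  have := h.RQ (conj_mem_of_Nor h.sR ha) ((h.two n hn hN).resolve_left hQ)
  convert this using 1; grp

theorem ab_not (h : Ctx D Q g s z) (ha : a ∈ RR Q g) (h1 : s * a * s⁻¹ * a⁻¹ ∉ Fr (RR Q g)) :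
    s * a * s⁻¹ * a ∉ Fr (RR Q g) := fun h2 => h1 (by
  have := mul_mem h2 (inv_mem (H5.pow_mem_map_frattini h.hR ha))
  convert this using 1; grp)

theorem zpow_C (h : Ctx D Q g s z) {i : ℤ} (hi : s ^ i ∈ Q) : s ^ i ∈ CC Q g := by
  obtain ⟨k, rfl⟩ := H5.dvd_of_zpow_mem Nat.prime_two h.sQ h.s2 hi
  rw [zpow_mul, zpow_natCast]; exact zpow_mem h.sq k

theorem genA (h : Ctx D Q g s z) (h4 : Nat.card D ≤ 4 * Nat.card (Fr D)) (hN : D ≤ Nor Q)
    (ha : a ∈ RR Q g) (h1 : s * a * s⁻¹ * a⁻¹ ∉ Fr (RR Q g)) : closure ({a, s} : Set G) = D := by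
  have hb := conj_mem_of_Nor h.sR ha
  have hu := mul_mem hb (inv_mem ha)
  set R1 := Fr (RR Q g) ⊔ zpowers (s * a * s⁻¹ * a⁻¹) with hR1
  have h2 : R1 ≤ RR Q g := sup_le Fr_le (zpowers_le.2 hu)
  have h3 : Nat.card R1 = _ := card_sup_eq h.hR le_rfl Fr_le hu h1
  have h0 := h.four
  have hi : Idx R1 (RR Q g) := idx_of_card h2 (by omega)
  have h5 : a ∉ R1 := fun h5 => by
    have h6 : RR Q g ≤ R1 := by
      rw [← h.gen ha h1, closure_le]
      rintro _ (rfl | rfl)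
      · exact h5
      · simpa using R1.mul_mem (mem_sup_right (mem_zpowers _)) h5
    have := card_le_of_le h6
    have : 0 < Nat.card (Fr (RR Q g)) := Nat.card_pos
    omega
  have hQ1 : Q ≤ Nor R1 := fun q hq => mem_Nor_of fun r hr => by
    simpa using R1.mul_mem (mem_sup_left (h.RQ (h2 hr) hq)) hr
  have hs1 : s ∈ Nor R1 := by
    refine mem_Nor_of fun r hr => (show R1 ≤ R1.comap (MulAut.conj s).toMonoidHom from
      sup_le (fun x hx => mem_sup_left (conj_mem_of_Nor (Nor_Fr le_rfl h.sR) hx))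
        (zpowers_le.2 ?_)) hr
    have := R1.mul_mem (mem_sup_left (h.RQ ha h.s2)) (R1.inv_mem (mem_sup_right (mem_zpowers _)))
    rw [mem_comap, MulEquiv.coe_toMonoidHom, MulAut.conj_apply]
    convert this using 1; grp
  have hC1 : CC Q g ≤ Nor R1 := inf_le_left.trans hQ1
  refine gen2 h.hD h4 (h.le (h.R_le ha)) h.sD (M := Q) (Fr_le_of_sq h.hD fun d hd => ?_)
    (h.R_le ha) (fun h6 => ?_) h.sQ
  · rcases h.two d hd (hN hd) with h6 | h6
    · exact pow_mem h6 2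
    · have := mul_mem (mul_mem h6 (conj_mem_of_Nor h.sN h6)) h.s2
      convert this using 1; grp
  have key : ∀ r ∈ RR Q g, ∀ t ∈ CC Q g ⊔ R1 ⊔ zpowers s, t ∈ Nor (RR Q g) → t ∈ Nor R1 →
      (r * t) ^ 2 ∈ CC Q g ⊔ R1 ⊔ zpowers s := fun r hr t ht h7 h8 => by
    have := mul_mem (mem_sup_left (mem_sup_right (R1.mul_mem
      (mem_sup_left (H5.pow_mem_map_frattini h.hR hr)) (hi.comm h7 h8 (inv_mem hr))))) (pow_mem ht 2)
    convert this using 1; grp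
  have h7 : Fr D ≤ CC Q g ⊔ R1 ⊔ zpowers s := Fr_le_of_sq h.hD fun d hd => by
    rcases h.two d hd (hN hd) with h7 | h7 <;> obtain ⟨r, hr, c, hc, e⟩ := h.dec h7
    · rw [e]; exact key r hr c (mem_sup_left (mem_sup_left hc)) (QR hc.1) (hC1 hc)
    · rw [mul_inv_eq_iff_eq_mul.1 e, mul_assoc]
      exact key r hr _ (mul_mem (mem_sup_left (mem_sup_left hc)) (mem_sup_right (mem_zpowers s)))
        (mul_mem (QR hc.1) h.sR) (mul_mem (hC1 hc) hs1)
  obtain ⟨k, hk, i, e⟩ := (H5.mem_sup_zpowers_iff (mem_Nor_sup h.sC hs1)).1 (h7 h6)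
  obtain ⟨r, hr, c, hc, rfl⟩ := (mem_sup_of_le_Nor' hC1).1 hk
  have h8 : s ^ i ∈ Q := by
    have := mul_mem (inv_mem (mul_mem (h.R_le (h2 hr)) hc.1)) (h.R_le ha)
    rwa [e, inv_mul_cancel_left] at this
  have h9 : c * s ^ i ∈ RR Q g := by
    have := mul_mem (inv_mem (h2 hr)) ha
    rwa [e, mul_assoc r, inv_mul_cancel_left] at this
  refine h5 ?_
  rw [e, mul_assoc]
  exact mul_mem hr (mem_sup_left (h.RF (h.CR h9 (mul_mem hc (h.zpow_C h8)))))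

theorem caseA1 (h : Ctx D Q g s z) (hE : ∀ d ∈ D, 4 * orderOf d < Nat.card D)
    (ha : a ∈ RR Q g) (h1 : s * a * s⁻¹ * a⁻¹ ∉ Fr (RR Q g)) (hg : closure ({a, s} : Set G) = D)
    (hS : Small (RR Q g) (CC Q g) z) : Tame D := by
  have hb := conj_mem_of_Nor h.sR ha
  have haD := h.le (h.R_le ha)
  have h2 : zpowers s ⊔ RR Q g = D := le_antisymm (sup_le (zpowers_le.2 h.sD) (h.R_le.trans h.le)) (by
    rw [← hg, closure_le]
    rintro _ (rfl | rfl)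
    · exact mem_sup_right ha
    · exact mem_sup_left (mem_zpowers _))
  have h3 := H1.card_sup_mul_card_inf_of_le_normalizer (zpowers_le.2 h.sR)
  rw [h2, h.four, hS.fr, h.card_z, Nat.card_zpowers] at h3
  have h4 := hE s h.sD
  have h5 : Nat.card (zpowers s ⊓ RR Q g : Subgroup G) = 1 := by
    have : 0 < Nat.card (zpowers s ⊓ RR Q g : Subgroup G) := Nat.card_pos
    have : Nat.card (zpowers s ⊓ RR Q g : Subgroup G) < 2 := by nlinarith
    omega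
  have hzR : z ∈ RR Q g := Fr_le (hS.fr ▸ mem_zpowers z)
  have h6 : z ∉ zpowers s := fun h6 => h.z1 (by
    rw [← mem_bot, ← card_eq_one.1 h5]; exact ⟨h6, hzR⟩)
  have hc : ∀ r ∈ RR Q g, s ^ 2 * r = r * s ^ 2 := fun r hr => mem_Cen.1 (hS.cen hr) _ h.sq
  have h7 := hS.pow _ (mul_mem hb ha) (h.ab_not ha h1)
  have h8 := hS.pow _ ha (h.a_not h1)
  have h9 : (s * a) ^ 2 = s * a * s⁻¹ * a * s ^ 2 := by rw [mul_assoc _ a, ← hc a ha]; grp
  have h10 : (s * a) ^ 4 = z * s ^ 4 := by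
    rw [show 4 = 2 * 2 from rfl, pow_mul, h9, (Commute.symm (hc _ (mul_mem hb ha))).mul_pow, h7,
      ← pow_mul]
  have h11 : (s * a) ^ 4 ∉ zpowers s := fun h11 => h6 (by
    rw [h10] at h11
    exact (mul_mem_cancel_right (pow_mem (mem_zpowers s) 4)).1 h11)
  have h12 := le_orderOf h.hD (mul_mem h.sD haD) (j := 2) fun h12 => h11 (by
    rw [show 4 = 2 ^ 2 from rfl, h12]; exact one_mem _)
  have h13 := hE _ (mul_mem h.sD haD)
  obtain ⟨m, hm⟩ := IsPGroup.iff_card.1 h.hD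
  have h14 : Nat.card D = 64 := by
    have h15 := h.h64
    have h16 : m ≤ 6 := (Nat.pow_le_pow_iff_right (by norm_num : 1 < 2)).1 (by omega)
    interval_cases m <;> omega
  have h15 : orderOf s = 8 := by rw [h5] at h3; omega
  have h16 : zpowers (s ^ 2) ≤ zpowers s := zpowers_le.2 (pow_mem (mem_zpowers s) 2)
  refine ⟨s ^ 2, pow_mem h.sD 2, s * a, mul_mem h.sD haD, s, h.sD, fun d hd => ?_,
    by rw [orderOf_pow, h15]; rfl, h14, fun h17 => h11 (h16 h17), ?_,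
    fun h17 => h.sQ (zpowers_le.2 h.s2 h17), mem_zpowers _, ?_⟩
  · refine (mem_centralizer_singleton_iff.1 ((show D ≤ centralizer {s ^ 2} from ?_) hd))
    rw [← h2]
    exact sup_le (zpowers_le.2 (mem_centralizer_singleton_iff.2 (by grp)))
      fun r hr => mem_centralizer_singleton_iff.2 (hc r hr).symm
  · rw [show 8 = 4 * 2 from rfl, pow_mul, h10, (Commute.symm (h.zcomm _)).mul_pow, h.z2, ← pow_mul,
      one_mul, show 4 * 2 = orderOf s from h15.symm, pow_orderOf_eq_one]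
  · have h17 : s * a * s⁻¹ * a * (s * a * s⁻¹) = a :=
      mul_right_cancel (b := a) (by rw [← pow_two a, h8, ← h7]; grp)
    have h18 : (s * a) ^ 3 = a * s ^ 2 * s := by
      calc (s * a) ^ 3 = (s * a) ^ 2 * (s * a * s⁻¹) * s := by grp
        _ = s * a * s⁻¹ * a * (s ^ 2 * (s * a * s⁻¹)) * s := by rw [h9]; grp
        _ = _ := by rw [hc _ hb, ← mul_assoc _ _ (s ^ 2), h17]
    have h19 : s * (s * a) * s⁻¹ * ((s * a) ^ 3)⁻¹ = (s ^ 2)⁻¹ := by
      calc _ = s ^ 2 * a * (s ^ 2)⁻¹ * (a * s ^ 2)⁻¹ := by rw [h18]; grp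
        _ = _ := by rw [hc a ha, mul_inv_cancel_right, ← hc a ha]; grp
    rw [h19]; exact inv_mem (mem_zpowers _)

theorem caseA2 (h : Ctx D Q g s z) (ha : a ∈ RR Q g) (h1 : s * a * s⁻¹ * a⁻¹ ∉ Fr (RR Q g))
    (hg : closure ({a, s} : Set G) = D) (hz : z ∈ ⁅RR Q g, RR Q g⁆)
    (h16 : Nat.card (RR Q g) = 16 * Nat.card (⁅RR Q g, RR Q g⁆ : Subgroup G)) : PP D z := by
  have hb := conj_mem_of_Nor h.sR ha
  have hu := mul_mem hb (inv_mem ha)
  have h2 := card_le_of_le (zpowers_le.2 hz)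
  have h3 := card_le_of_le h.R_le
  have h32 := h.Q32
  have h4 := h.four
  have hcz := h.card_z
  have e1 : RR Q g = Q := eq_of_le_of_card_ge h.R_le (by omega)
  have e2 : zpowers z = ⁅RR Q g, RR Q g⁆ := eq_of_le_of_card_ge (zpowers_le.2 hz) (by omega)
  have hzc : ∀ w ∈ zpowers z, ∀ y, Commute y w := fun w hw y => by
    obtain ⟨k, rfl⟩ := mem_zpowers_iff.1 hw
    exact Commute.zpow_right (h.zcomm y) k
  have hz2 : ∀ w ∈ zpowers z, w ^ 2 = 1 := fun w hw => by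
    rcases mem_zpowers_inv h.z2 hw with rfl | rfl
    · exact one_pow 2
    · exact h.z2
  have hk : ∀ x ∈ RR Q g, ∀ y ∈ RR Q g, ⁅x, y⁆ ∈ zpowers z := fun x hx y hy =>
    e2.ge (commutator_mem_commutator hx hy)
  have hp : ∀ x ∈ RR Q g, ∀ y ∈ RR Q g, ∀ n, (x * y) ^ n = x ^ n * y ^ n * ⁅y, x⁆ ^ n.choose 2 :=
    fun x hx y hy n => H5.mul_pow_of_class_two (hzc _ (hk y hy x hx) x) (hzc _ (hk y hy x hx) y) n
  let Ω : Subgroup G :=
    { carrier := {r | r ∈ RR Q g ∧ r ^ 2 ∈ zpowers z}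
      mul_mem' := fun {x y} hx hy => ⟨mul_mem hx.1 hy.1, by
        rw [hp x hx.1 y hy.1]; exact mul_mem (mul_mem hx.2 hy.2) (pow_mem (hk y hy.1 x hx.1) _)⟩
      one_mem' := ⟨one_mem _, by simp⟩
      inv_mem' := fun {x} hx => ⟨inv_mem hx.1, by rw [inv_pow]; exact inv_mem hx.2⟩ }
  have hΩ : Ω ≤ RR Q g := fun _ hx => hx.1
  have hgΩ : g ∈ Nor Ω := mem_Nor_of fun r hr => ⟨conj_mem_of_Nor gR hr.1, by
    rw [conj_pow, (hzc _ hr.2 g).eq, mul_inv_cancel_right]; exact hr.2⟩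
  have h5 : Ω ≤ Fr (RR Q g) := h.inv_le hΩ hgΩ fun h5 => by
    have := card_le_of_le (Fr_le_of_sq h.hR fun d hd => (h5 hd).2)
    omega
  have h6 : zpowers z ≤ Ω := fun w hw => ⟨Fr_le (h.RF (e2.le hw)), pow_mem hw 2⟩
  have h7 : Fr (RR Q g) ≤ Ω := by
    have h7 := card_le_of_le h5
    refine (eq_of_le_of_card_ge h5 ?_).ge
    rcases h.idx (e2.ge.trans h6) hΩ hgΩ with h8 | h8 | h8
    · omega
    · omega
    obtain ⟨x, hx, h9, h10, -⟩ := H5.exists_mem_normalizer_of_lt h.hR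
      (lt_of_le_of_ne (h6.trans hΩ) fun e => by rw [← e] at h4 h16; omega)
    exact absurd ((eq_of_le_of_card_ge h6 (by omega)).ge ⟨hx, h10⟩) h9
  have h8 : ∀ r ∈ RR Q g, r ^ 4 ∈ zpowers z := fun r hr => by
    simpa [← pow_mul] using (h7 (H5.pow_mem_map_frattini h.hR hr)).2
  have hp4 : ∀ x ∈ RR Q g, ∀ y ∈ RR Q g, (x * y) ^ 4 = x ^ 4 * y ^ 4 := fun x hx y hy => by
    rw [hp x hx y hy, show Nat.choose 4 2 = 2 * 3 from rfl, pow_mul, hz2 _ (hk y hy x hx), one_pow,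
      mul_one]
  let Ω₂ : Subgroup G :=
    { carrier := {r | r ∈ RR Q g ∧ r ^ 4 = 1}
      mul_mem' := fun {x y} hx hy => ⟨mul_mem hx.1 hy.1, by rw [hp4 x hx.1 y hy.1, hx.2, hy.2, mul_one]⟩
      one_mem' := ⟨one_mem _, by simp⟩
      inv_mem' := fun {x} hx => ⟨inv_mem hx.1, by rw [inv_pow, hx.2, _root_.inv_one]⟩ }
  have h9 : RR Q g ≤ Ω₂ := h.le_inv (fun _ hx => hx.1) (mem_Nor_of fun r hr =>
    ⟨conj_mem_of_Nor gR hr.1, by rw [conj_pow, hr.2, mul_one, mul_inv_cancel]⟩)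
    fun x hx y hy h9 h10 => ⟨mul_mem hx hy, by
      rw [hp4 x hx y hy, (mem_zpowers_inv h.z2 (h8 x hx)).resolve_left fun e => h9 ⟨hx, e⟩,
        (mem_zpowers_inv h.z2 (h8 y hy)).resolve_left fun e => h10 ⟨hy, e⟩, ← pow_two, h.z2]⟩
  set u := s * a * s⁻¹ * a⁻¹ with hu'
  have h10 : u ^ 2 ∉ zpowers z := fun h10 => h1 (h5 ⟨hu, h10⟩)
  have h11 : (u ^ 2) ^ 2 = 1 := by rw [← pow_mul]; exact (h9 hu).2
  have h12 : s * u * s⁻¹ = u⁻¹ := by
    have := (hzc _ (e2.ge (h.CR (e1.ge h.s2) h.sq)) a).eq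
    calc s * u * s⁻¹ = s ^ 2 * a * (s ^ 2)⁻¹ * (s * a * s⁻¹)⁻¹ := by rw [hu']; grp
      _ = _ := by rw [← this, hu']; grp
  have hzu : u ∈ Nor (zpowers z) := mem_Nor_zpowers (by
    rw [h.zcomm, mul_inv_cancel_right]; exact mem_zpowers z)
  have h13 : ∀ x, x * u * x⁻¹ ∈ zpowers z ⊔ zpowers u → x ∈ Nor (zpowers z ⊔ zpowers u) :=
    fun x hx => mem_Nor_of fun r hr => (show _ ≤ (zpowers z ⊔ zpowers u).comap
      (MulAut.conj x).toMonoidHom from sup_le (zpowers_le.2 (mem_sup_left (by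
        change x * z * x⁻¹ ∈ _
        rw [h.zcomm, mul_inv_cancel_right]; exact mem_zpowers z))) (zpowers_le.2 hx)) hr
  refine ⟨u, commutator_mem_commutator h.sD (h.le (h.R_le ha)), fun e => h10 (e ▸ one_mem _), h11,
    fun d hd => ?_, fun e => h10 (e ▸ mem_zpowers _), fun k hk' => ?_⟩
  · refine mem_centralizer_singleton_iff.1 ((show D ≤ centralizer {u ^ 2} from ?_) hd)
    rw [← hg, closure_le]
    rintro _ (rfl | rfl) <;> refine mem_centralizer_singleton_iff.2 ?_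
    · refine (commutatorElement_eq_one_iff_mul_comm.1 ?_).symm
      rw [H5.commutator_pow_left (hzc _ (hk _ hu _ ha) u), hz2 _ (hk _ hu _ ha)]
    · rw [← mul_inv_eq_iff_eq_mul, ← conj_pow, h12, inv_pow, inv_eq_iff_mul_eq_one, ← pow_two, h11]
  · rw [← hg] at hk'
    obtain ⟨w, hw, i, rfl⟩ := (H5.mem_sup_zpowers_iff hzu).1 (comm_closure_le (h13 a (by
      simpa [commutatorElement_def] using mul_mem (mem_sup_left (hk _ ha _ hu))
        (mem_sup_right (mem_zpowers u)))) (h13 s (h12 ▸ mem_sup_right (inv_mem (mem_zpowers u))))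
      (by rw [← commutatorElement_inv]; exact mem_sup_right (inv_mem (mem_zpowers u))) hk')
    rw [(hzc w hw _).symm.mul_pow, hz2 w hw, one_mul, ← zpow_natCast (u ^ i), ← zpow_mul, mul_comm,
      zpow_mul, zpow_natCast]
    exact zpow_mem (mem_zpowers _) i

theorem caseA (h : Ctx D Q g s z) (h4 : Nat.card D ≤ 4 * Nat.card (Fr D))
    (hE : ∀ d ∈ D, 4 * orderOf d < Nat.card D) (hz : z ∈ ⁅D, D⁆) (hN : D ≤ Nor Q) :
    Tame D ∨ PP D z := by
  obtain ⟨a, ha, h1⟩ := h.exists_a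
  have hg := h.genA h4 hN ha h1
  have h2 : z ∈ ⁅RR Q g, RR Q g⁆ := by
    rw [← hg] at hz
    refine h.CR (comm_closure_le (le_normalizer ha) h.sR ?_ hz) h.zC
    simpa only [commutatorElement_def, mul_assoc] using
      mul_mem ha (conj_mem_of_Nor h.sR (inv_mem ha))
  rcases h.dich with e | e
  · obtain ⟨ρ, hS⟩ := h.small e
    obtain rfl := (mem_zpowers_inv hS.sq (hS.fr ▸ e ▸ h2)).resolve_left h.z1
    exact Or.inl (h.caseA1 hE ha h1 hg hS)
  · exact Or.inr (h.caseA2 ha h1 hg h2 e)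

end Ctx

end H85.TG
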