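import Mathlib
import Cfsg.Agent.Lib.TG.CaseA
import Cfsg.Agent.S0112
import Cfsg.Agent.S0113

/-! The obstruction at a subgroup that is not normal. -/

set_option autoImplicit false
set_option linter.unusedSectionVars false
set_option linter.style.haveILetI false

open Subgroup H86
open scoped commutatorElement

namespace H85.TG

variable {G : Type*} [Group G] [Finite G] {D Q K N M H : Subgroup G}
  {a b c d g n r s t v x y z ρ ζ : G}

/-- elements centralising or inverting `v` -/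
def PM (v : G) : Subgroup G where
  carrier := {x | x * v * x⁻¹ = v ∨ x * v * x⁻¹ = v⁻¹}
  mul_mem' := fun {x y} hx hy => by
    have e : x * y * v * (x * y)⁻¹ = x * (y * v * y⁻¹) * x⁻¹ := by grp
    have e' : x * v⁻¹ * x⁻¹ = (x * v * x⁻¹)⁻¹ := by grp
    rcases hx with hx | hx <;> rcases hy with hy | hy <;>
      simp only [Set.mem_setOf_eq, e, hy, e', hx, inv_inv, true_or, or_true]
  one_mem' := Or.inl (by simp)
  inv_mem' := fun {x} hx => hx.imp (fun hx => by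
      conv_lhs => rw [← hx]
      grp) fun hx => by
    rw [← inv_inj, inv_inv v]
    calc _ = x⁻¹ * v⁻¹ * x := by grp
      _ = v := by rw [← hx]; grp

theorem PM_sq (h : x ∈ PM v) : x ^ 2 ∈ Cen (zpowers v) := by
  have e' : x * v⁻¹ * x⁻¹ = (x * v * x⁻¹)⁻¹ := by grp
  have e : (x ^ 2) * v * (x ^ 2)⁻¹ = x * (x * v * x⁻¹) * x⁻¹ := by grp
  have : (x ^ 2) * v * (x ^ 2)⁻¹ = v := by
    rcases h with h | h
    · rw [e, h, h]
    · rw [e, h, e', h, inv_inv]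
  intro y hy
  obtain ⟨k, rfl⟩ := mem_zpowers_iff.1 hy
  exact (Commute.zpow_left (mul_inv_eq_iff_eq_mul.1 this).symm k).eq

theorem PM_le : PM v ≤ Nor (zpowers v) := fun _ hx => mem_Nor_zpowers
  (hx.elim (fun h => h.symm ▸ mem_zpowers v) fun h => h.symm ▸ inv_mem (mem_zpowers v))

namespace Ctx

theorem cardN (h : Ctx D Q g s z) : Nat.card (D ⊓ Nor Q : Subgroup G) = 2 * Nat.card Q := by
  rw [mul_comm, ← H5.card_sup_zpowers Nat.prime_two h.sN h.sQ h.s2]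
  congr 1
  refine congrArg _ (le_antisymm (fun n hn => ?_)
    (sup_le (le_inf h.le le_normalizer) (zpowers_le.2 ⟨h.sD, h.sN⟩)))
  rcases h.two n hn.1 hn.2 with h1 | h1
  · exact mem_sup_left h1
  · simpa using mul_mem (mem_sup_left h1 : _ ∈ Q ⊔ zpowers s) (mem_sup_right (mem_zpowers s))

theorem QN (h : Ctx D Q g s z) : Q ≤ D ⊓ Nor Q := le_inf h.le le_normalizer

theorem idxQ (h : Ctx D Q g s z) : Idx Q (D ⊓ Nor Q) := idx_of_card h.QN h.cardN.le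

theorem cardQ (h : Ctx D Q g s z) (e : ⁅RR Q g, RR Q g⁆ = Fr (RR Q g))
    (hS : Small (RR Q g) (CC Q g) ρ) : Nat.card Q = 4 * Nat.card (CC Q g) := by
  have h1 := H1.card_sup_mul_card_inf_of_le_normalizer (H := CC Q g) (N := RR Q g)
    (inf_le_left.trans QR)
  have h2 : CC Q g ⊔ RR Q g = Q := le_antisymm (sup_le inf_le_left h.R_le) fun x hx => by
    obtain ⟨r, hr, c, hc, rfl⟩ := h.dec hx
    exact mul_mem (mem_sup_right hr) (mem_sup_left hc)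
  have h3 : CC Q g ⊓ RR Q g = Fr (RR Q g) := le_antisymm (fun x hx => e.le (h.CR hx.2 hx.1))
    (le_inf (hS.fr ▸ zpowers_le.2 hS.mem) Fr_le)
  rw [h2, h3, h.four] at h1
  exact Nat.eq_of_mul_eq_mul_right (Nat.card_pos (α := Fr (RR Q g))) (by rw [h1]; ring)

theorem caseB1 (h : Ctx D Q g s z) (hE : ∀ d ∈ D, 4 * orderOf d < Nat.card D)
    (e : ⁅RR Q g, RR Q g⁆ = Fr (RR Q g)) (h8 : Nat.card Q = 8) (h32 : 32 ≤ Nat.card D) : False := by
  obtain ⟨a, ha, h1⟩ := h.exists_a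
  haveI hZn : (zpowers z).Normal := ⟨fun y hy x => by
    obtain ⟨k, rfl⟩ := mem_zpowers_iff.1 hy
    rw [(Commute.zpow_right (h.zcomm x) k).eq, mul_inv_cancel_right]; exact hy⟩
  have hZQ : zpowers z ≤ Q := zpowers_le.2 h.zC.1
  let Z := (zpowers z).subgroupOf D
  have hZ : Nat.card Z = 2 := by rw [H1.card_subgroupOf_of_le (hZQ.trans h.le), h.card_z]
  have h2 := Z.card_mul_index
  rw [hZ, index_eq_card] at h2
  obtain ⟨n, hn⟩ := IsPGroup.iff_card.1 (h.hD.to_quotient Z)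
  let A := (Q.subgroupOf D).map (QuotientGroup.mk' Z)
  have hA : Nat.card A = 2 ^ 2 := by
    have := H1.card_map_mk'_mul Z (Q.subgroupOf D)
    rw [inf_eq_left.2 (subgroupOf_mono D hZQ), hZ, H1.card_subgroupOf_of_le h.le, h8] at this
    change Nat.card A * 2 = 8 at this
    omega
  have hC : centralizer (A : Set (D ⧸ Z)) = A := by
    haveI := H5.isMulCommutative_of_card_dvd_sq (G := A) (p := 2) hA.dvd
    refine le_antisymm (fun d hd => ?_) (le_centralizer A)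
    induction d using QuotientGroup.induction_on with | _ d =>
    have h3 : ∀ q ∈ Q, (d : G) * q * (d : G)⁻¹ * q⁻¹ ∈ zpowers z := fun q hq => by
      have h4 := hd _ (mem_map_of_mem (QuotientGroup.mk' Z)
        (show (⟨q, h.le hq⟩ : D) ∈ Q.subgroupOf D from hq))
      have h5 : ((d * ⟨q, h.le hq⟩ * d⁻¹ * ⟨q, h.le hq⟩⁻¹ : D) : D ⧸ Z) = 1 := by
        simp only [QuotientGroup.mk_mul, QuotientGroup.mk_inv]
        rw [QuotientGroup.mk'_apply] at h4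
        rw [mul_assoc (d : D ⧸ Z), ← mul_assoc (d : D ⧸ Z), ← h4]; grp
      exact mem_subgroupOf.1 ((QuotientGroup.eq_one_iff _).1 h5)
    have h4 : (d : G) ∈ Nor Q := mem_Nor_of fun q hq => by simpa using mul_mem (hZQ (h3 q hq)) hq
    refine mem_map_of_mem _ (show (d : G) ∈ Q from by_contra fun h5 => h1 ?_)
    have h6 := e.le (h.CR (mul_mem (conj_mem_of_Nor (h.NR d.2 h4) ha) (inv_mem ha))
      (zpowers_le.2 h.zC (h3 a (h.R_le ha))))
    have := mul_mem (inv_mem (h.moves ha d.2 h4 h5)) h6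
    convert this using 1; grp
  have h3 : 3 ≤ n := by
    by_contra h3
    have : 2 ^ n ≤ 2 ^ 2 := Nat.pow_le_pow_right two_pos (by omega)
    omega
  obtain ⟨C, hc, hi⟩ := Cfsg.Agent.S0113.result n h3 hn (Cfsg.Agent.S0112.result n hn A hA hC)
  obtain ⟨⟨y, hy⟩, h4⟩ := (isCyclic_iff_exists_orderOf_eq_natCard.1 hc)
  induction y using QuotientGroup.induction_on with | _ y =>
  have h5 := C.card_mul_index
  have h6 := Nat.le_of_dvd (orderOf_pos _) (orderOf_map_dvd (QuotientGroup.mk' Z) y)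
  have h7 := hE y y.2
  rw [orderOf_mk] at h4
  rw [orderOf_coe] at h7
  rw [QuotientGroup.mk'_apply, h4] at h6
  rw [hi] at h5
  omega

/-- the situation where `N_D(Q)` has index two in `D` and `C_Q(g)` has order four -/
structure B2 (D Q : Subgroup G) (g s z ρ a : G) : Prop extends Ctx D Q g s z where
  sm : Small (RR Q g) (CC Q g) ρ
  e : ⁅RR Q g, RR Q g⁆ = Fr (RR Q g)
  c4 : Nat.card (CC Q g) = 4
  c64 : Nat.card D = 64
  aR : a ∈ RR Q g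
  aF : s * a * s⁻¹ * a⁻¹ ∉ Fr (RR Q g)

end Ctx

namespace Ctx.B2

theorem idxN (h : B2 D Q g s z ρ a) : Idx (D ⊓ Nor Q) D :=
  idx_of_card inf_le_left (by rw [h.cardN, h.cardQ h.e h.sm, h.c4, h.c64])

theorem FrN (h : B2 D Q g s z ρ a) : Fr D ≤ D ⊓ Nor Q := Fr_le_of_sq h.hD fun d hd => by
  by_cases h1 : d ∈ D ⊓ Nor Q
  · exact pow_mem h1 2
  · rw [pow_two]; exact h.idxN d hd d hd h1 h1

theorem DN (h : B2 D Q g s z ρ a) : D ≤ Nor (D ⊓ Nor Q) := le_Nor_of_Fr h.hD h.FrN inf_le_left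

theorem PN (h : B2 D Q g s z ρ a) (ht : t ∈ D) : cs t Q ≤ D ⊓ Nor Q :=
  (cs_mono t h.QN).trans (mem_Nor_iff_cs.1 (h.DN ht)).le

theorem idxP (h : B2 D Q g s z ρ a) (ht : t ∈ D) : Idx (cs t Q) (D ⊓ Nor Q) :=
  idx_of_card (h.PN ht) (by rw [card_cs, h.cardN])

theorem ccomm (h : B2 D Q g s z ρ a) (hx : x ∈ CC Q g) (hy : y ∈ CC Q g) : Commute x y :=
  congrArg Subtype.val ((H5.isMulCommutative_of_card_dvd_sq (G := CC Q g) (p := 2)
    h.c4.dvd).is_comm.comm ⟨x, hx⟩ ⟨y, hy⟩)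

theorem QQ (h : B2 D Q g s z ρ a) (hx : x ∈ Q) (hy : y ∈ Q) :
    x * y * x⁻¹ * y⁻¹ ∈ Fr (RR Q g) := by
  obtain ⟨r, hr, c, hc, rfl⟩ := h.dec hy
  obtain ⟨r', hr', c', hc', rfl⟩ := h.dec hx
  have h1 : Commute (r' * c') c :=
    Commute.mul_left (mem_Cen.1 (h.sm.cen hr') c hc).symm (h.ccomm hc' hc)
  have := h.RQ hr hx
  convert this using 1
  calc _ = r' * c' * r * (r' * c')⁻¹ * (r' * c' * c * (r' * c')⁻¹) * (r * c)⁻¹ := by grp
    _ = _ := by rw [h1.eq]; grp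

theorem Qsq (h : B2 D Q g s z ρ a) (h1 : ρ ≠ 1) (hx : x ∈ Q) : x ^ 2 ∈ Fr (RR Q g) := by
  obtain ⟨r, hr, c, hc, rfl⟩ := h.dec hx
  rw [(Commute.symm (mem_Cen.1 (h.sm.cen hr) c hc)).mul_pow]
  refine mul_mem (H5.pow_mem_map_frattini h.hR hr) ?_
  rw [h.sm.fr]
  by_cases h2 : c ∈ zpowers ρ
  · exact pow_mem h2 2
  · rw [pow_two]
    exact idx_of_card (zpowers_le.2 h.sm.mem)
      (by rw [h.c4, Nat.card_zpowers, orderOf_eq_prime h.sm.sq h1]) c hc c hc h2 h2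

theorem conj_eq (h : B2 D Q g s z ρ a) (hd : d * ρ * d⁻¹ ∈ Fr (RR Q g)) : d * ρ * d⁻¹ = ρ := by
  rcases mem_zpowers_inv h.sm.sq (h.sm.fr ▸ hd) with h1 | h1
  · have : ρ = 1 := by simpa [mul_inv_eq_iff_eq_mul] using h1
    rw [this]; simp
  · exact h1

theorem DF (h : B2 D Q g s z ρ a) : D ≤ Nor (Fr (RR Q g)) := fun t ht => by
  have hρ : ρ ∈ Fr (RR Q g) := h.sm.fr ▸ mem_zpowers ρ
  by_cases h1 : ρ = 1
  · rw [h.sm.fr, h1, zpowers_one_eq_bot, Nor_bot]; trivial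
  have hb := conj_mem_of_Nor h.sR h.aR
  obtain ⟨r, hr, hrP, hrF⟩ : ∃ r ∈ RR Q g, r ∈ cs t⁻¹ Q ∧ r ∉ Fr (RR Q g) := by
    by_cases h2 : a ∈ cs t⁻¹ Q
    · exact ⟨a, h.aR, h2, h.a_not h.aF⟩
    by_cases h3 : s * a * s⁻¹ ∈ cs t⁻¹ Q
    · exact ⟨_, hb, h3, fun h4 => h.a_not h.aF ((mem_Nor.1 (Nor_Fr le_rfl h.sR) a).2 h4)⟩
    · exact ⟨_, mul_mem hb h.aR, h.idxP (inv_mem ht) _ (h.QN (h.R_le hb)) _ (h.QN (h.R_le h.aR))
        h3 h2, h.ab_not h.aR h.aF⟩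
  have h2 := h.Qsq h1 (mem_cs.1 hrP)
  rw [inv_inv, conj_pow, h.sm.pow r hr hrF] at h2
  rw [h.sm.fr] at h2 ⊢
  exact mem_Nor_zpowers h2

theorem cent (h : B2 D Q g s z ρ a) (ht : t ∈ D) (htN : t ∉ Nor Q) (hζ : ζ ∈ Q) (hζ' : ζ ∈ cs t Q)
    (hn : n ∈ D ⊓ Nor Q) : n * ζ * n⁻¹ * ζ⁻¹ ∈ Fr (RR Q g) := by
  by_cases h1 : n ∈ Q
  · exact h.QQ h1 hζ
  obtain ⟨y, hy, hyQ⟩ := SetLike.not_le_iff_exists.1 fun h2 : cs t Q ≤ Q =>
    htN (mem_Nor_iff_cs.2 (eq_of_le_of_card_ge h2 (card_cs t Q).ge))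
  have h2 := h.idxQ n hn _ (inv_mem (h.PN ht hy)) h1 fun h2 => hyQ (inv_mem_iff.1 h2)
  have h3 := conj_mem_of_Nor (h.DF (mul_mem (h.le h2) ht)) (h.QQ (mem_cs.1 hy) (mem_cs.1 hζ'))
  have := mul_mem h3 (h.QQ h2 hζ)
  convert this using 1; grp

theorem a_notP (h : B2 D Q g s z ρ a) (ht : t ∈ D) (htN : t ∉ Nor Q) : a ∉ cs t Q := fun h1 =>
  h.aF (h.cent ht htN (h.R_le h.aR) h1 ⟨h.sD, h.sN⟩)

theorem j_not (h : B2 D Q g s z ρ a) (ht : t ∈ D) (htN : t ∉ Nor Q) : t * a * t⁻¹ ∉ Q := fun h1 =>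
  h.a_notP (inv_mem ht) (fun h2 => htN (inv_mem_iff.1 h2)) (mem_cs.2 (by rwa [inv_inv]))

theorem jN (h : B2 D Q g s z ρ a) (ht : t ∈ D) : t * a * t⁻¹ ∈ D ⊓ Nor Q :=
  h.PN ht (conj_mem_cs.2 (h.R_le h.aR))

theorem exists_t (h : B2 D Q g s z ρ a) : ∃ t ∈ D, t ∉ Nor Q ∧ t ^ 2 ∉ Q := by
  obtain ⟨t, ht, htN⟩ := SetLike.not_le_iff_exists.1 fun h1 : D ≤ Nor Q => by
    have := h.cardN
    rw [inf_eq_left.2 h1, h.cardQ h.e h.sm, h.c4, h.c64] at this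
    omega
  by_cases h1 : t ^ 2 ∈ Q
  · have haQ := h.R_le h.aR
    refine ⟨t * a, mul_mem ht (h.le haQ), fun h2 =>
      htN ((mul_mem_cancel_right (le_normalizer haQ)).1 h2), fun h2 => h.j_not ht htN ?_⟩
    have := mul_mem h2 (inv_mem (mul_mem h1 haQ))
    convert this using 1; grp
  · exact ⟨t, ht, htN, h1⟩

theorem caseV (h : B2 D Q g s z 1 a) (h4 : Nat.card D ≤ 4 * Nat.card (Fr D))
    (hz : z ∈ ⁅D, D⁆) : False := by
  obtain ⟨t, ht, htN, ht2⟩ := h.exists_t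
  have hF : ∀ x ∈ Fr (RR Q g), x = 1 := fun x hx => by simpa [h.sm.fr] using hx
  have haQ := h.R_le h.aR
  have hb := conj_mem_of_Nor h.sR h.aR
  have ha2 : a * a = 1 := by rw [← pow_two]; exact hF _ (H5.pow_mem_map_frattini h.hR h.aR)
  have hai : a⁻¹ = a := inv_eq_iff_mul_eq_one.2 ha2
  have hj := h.jN ht
  have hjQ := h.j_not ht htN
  set j := t * a * t⁻¹ with hj'
  have hji : j⁻¹ = j := by rw [hj', conj_inv, hai]
  have hmv : ∀ n ∈ D ⊓ Nor Q, n ∉ Q → n * a * n⁻¹ = s * a * s⁻¹ := fun n hn hnQ =>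
    mul_inv_eq_one.1 (hF _ (h.moves h.aR hn.1 hn.2 hnQ))
  have hv2 : (a * j) ^ 2 = a * (s * a * s⁻¹) := by rw [← hmv j hj hjQ, hji]; grp
  have hvi : (a * j)⁻¹ = j * a := by rw [mul_inv_rev, hai, hji]
  have h1 : a * (a * j) * a⁻¹ = (a * j)⁻¹ := by rw [← mul_assoc, ha2, one_mul, hvi, hai]
  have haP : a ∈ PM (a * j) := Or.inr h1
  have hjP : j ∈ PM (a * j) := Or.inr (by rw [hvi]; grp)
  have hZ : ∀ ζ ∈ Q, ζ ∈ cs t Q → ζ ∈ PM (a * j) := fun ζ hζ hζ' => Or.inl (by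
    have := hF _ (h.cent ht htN hζ hζ' (mul_mem (h.QN haQ) hj))
    rw [mul_inv_eq_one, mul_inv_eq_iff_eq_mul] at this
    rw [← this, mul_inv_cancel_right])
  have hQP : Q ≤ PM (a * j) := fun q hq => by
    by_cases h2 : q ∈ cs t Q
    · exact hZ q hq h2
    · exact (mul_mem_cancel_left haP).1 (hZ _ (mul_mem haQ hq)
        (h.idxP ht _ (h.QN haQ) _ (h.QN hq) (h.a_notP ht htN) h2))
  have hNP : D ⊓ Nor Q ≤ PM (a * j) := fun n hn => by
    by_cases h2 : n ∈ Q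
    · exact hQP h2
    · exact (mul_mem_cancel_right hjP).1 (hQP (h.idxQ n hn j hj h2 hjQ))
  have htP : t ∈ PM (a * j) := Or.inl (by
    have h2 := hmv _ (h.FrN (H5.pow_mem_map_frattini h.hD ht)) ht2
    calc t * (a * j) * t⁻¹ = j * (t ^ 2 * a * (t ^ 2)⁻¹) := by rw [hj']; grp
      _ = j⁻¹ * (j * a * j⁻¹) := by rw [h2, hmv j hj hjQ, hji]
      _ = _ := by rw [← mul_assoc, inv_mul_cancel_left, hji])
  have hDP : D ≤ PM (a * j) := fun d hd => by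
    by_cases h2 : d ∈ D ⊓ Nor Q
    · exact hNP h2
    · exact (mul_mem_cancel_right htP).1 (hNP (h.idxN d hd t ht h2 fun h3 => htN h3.2))
  have h2 : a ∉ Fr D := fun h2 => by
    have h3 := mem_Cen.1 (Fr_le_of_sq h.hD (fun d hd => PM_sq (hDP hd)) h2) _ (mem_zpowers (a * j))
    rw [← h3, mul_inv_cancel_right, eq_inv_iff_mul_eq_one, ← pow_two, hv2] at h1
    refine h.aF ?_
    rw [← inv_eq_iff_mul_eq_one.2 h1, hai, ha2]; exact one_mem _
  have h3 := gen2 h.hD h4 (h.le haQ) ht h.FrN (h.QN haQ) h2 fun h3 => htN h3.2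
  rw [← h3] at hz
  obtain ⟨i, hi⟩ := mem_zpowers_iff.1 (comm_closure_le (PM_le haP) (PM_le htP) (by
    have : ⁅a, t⁆ = a * j := by rw [← hji, hj']; grp
    rw [this]; exact mem_zpowers _) hz)
  obtain ⟨k, rfl⟩ := H5.dvd_of_zpow_mem Nat.prime_two
    (fun h5 => hjQ ((mul_mem_cancel_left haQ).1 h5)) (hv2 ▸ h.R_le (mul_mem h.aR hb))
    (hi ▸ h.zC.1 : (a * j) ^ i ∈ Q)
  refine h.z1 (hF _ (h.RF (h.CR ?_ h.zC)))
  rw [← hi, zpow_mul, zpow_natCast, hv2]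
  exact zpow_mem (mul_mem h.aR hb) k

theorem caseQ (h : B2 D Q g s z ρ a) (h1 : ρ ≠ 1) (hE : ∀ d ∈ D, 4 * orderOf d < Nat.card D) :
    False := by
  obtain ⟨t, ht, htN, ht2⟩ := h.exists_t
  have haQ := h.R_le h.aR
  have hb := conj_mem_of_Nor h.sR h.aR
  have hj := h.jN ht
  have hjQ := h.j_not ht htN
  have hjP : t * a * t⁻¹ ∈ cs t Q := conj_mem_cs.2 haQ
  have hj2 : (t * a * t⁻¹) ^ 2 ∈ Fr (RR Q g) := by
    rw [conj_pow]; exact conj_mem_of_Nor (h.DF ht) (H5.pow_mem_map_frattini h.hR h.aR)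
  generalize t * a * t⁻¹ = j at hj hjQ hjP hj2
  have hn := h.FrN (H5.pow_mem_map_frattini h.hD ht)
  have h2 := h.idxQ _ hn _ (inv_mem hj) ht2 fun h2 => hjQ (inv_mem_iff.1 h2)
  have h3 := h.idxP ht _ (h.QN (inv_mem haQ)) _ (h.QN h2)
    (fun h3 => h.a_notP ht htN (inv_mem_iff.1 h3)) fun h3 => ht2 (by
      have := mem_cs.1 ((mul_mem_cancel_right (inv_mem hjP)).1 h3)
      convert this using 1; grp)
  have h4 := mul_mem (inv_mem haQ) h2
  obtain ⟨ζ, hζ⟩ : ∃ ζ, ζ = a⁻¹ * (t ^ 2 * j⁻¹) := ⟨_, rfl⟩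
  rw [← hζ] at h3 h4
  have h5 : t ^ 2 = a * ζ * j := by rw [hζ]; grp
  have hbF := h.DF (h.le (h.R_le hb))
  have h6 : (a * (s * a * s⁻¹))⁻¹ * (t ^ 2) ^ 2 ∈ Fr (RR Q g) := by
    have := mul_mem (mul_mem (conj_mem_of_Nor' hbF (mul_mem (inv_mem (h.cent ht htN h4 h3
      (mul_mem hj (h.QN haQ)))) (h.moves h.aR hj.1 hj.2 hjQ)))
      (conj_mem_of_Nor (h.DF hj.1) (h.Qsq h1 h4))) hj2
    convert this using 1
    rw [h5]; grp
  have h7 : (t ^ 2) ^ 2 ∈ RR Q g := (mul_mem_cancel_left (inv_mem (mul_mem h.aR hb))).1 (Fr_le h6)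
  have h8 := h.sm.pow _ h7 fun h8 => h.ab_not h.aR h.aF (by
    have := conj_mem_of_Nor hbF (inv_mem ((mul_mem_cancel_right h8).1 h6))
    convert this using 1; grp)
  have h9 := le_orderOf h.hD ht (j := 3) (by
    rw [← pow_mul, ← pow_mul] at h8
    exact h8 ▸ h1)
  have := hE t ht
  rw [h.c64] at this
  omega

end Ctx.B2

theorem Ctx.caseB (h : Ctx D Q g s z) (h4 : Nat.card D ≤ 4 * Nat.card (Fr D))
    (hE : ∀ d ∈ D, 4 * orderOf d < Nat.card D) (hz : z ∈ ⁅D, D⁆) (hN : ¬ D ≤ Nor Q) : False := by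
  have h1 := two_card_le (lt_of_le_of_ne inf_le_left fun e : D ⊓ Nor Q = D => hN (inf_eq_left.1 e))
  have h2 := h.cardN
  have h3 := h.h64
  have h5 := card_le_of_le h.R_le
  have e : ⁅RR Q g, RR Q g⁆ = Fr (RR Q g) := h.dich.resolve_right fun e => by
    have h6 : 0 < Nat.card (⁅RR Q g, RR Q g⁆ : Subgroup G) := Nat.card_pos
    have h7 : RR Q g = Q := eq_of_le_of_card_ge h.R_le (by omega)
    have := card_le_of_le (zpowers_le.2 (h.CR (h7.ge h.zC.1) h.zC))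
    rw [h.card_z] at this
    omega
  obtain ⟨ρ, hS⟩ := h.small e
  have h6 := h.cardQ e hS
  obtain ⟨k, hk⟩ := card_dvd_of_le (zpowers_le.2 h.zC)
  rw [h.card_z] at hk
  have h7 : 0 < Nat.card (CC Q g) := Nat.card_pos
  by_cases h8 : Nat.card (CC Q g) = 2
  · exact h.caseB1 hE e (by omega) (by omega)
  obtain ⟨a, ha, h9⟩ := h.exists_a
  have hB : Ctx.B2 D Q g s z ρ a := ⟨h, hS, e, by omega, by omega, ha, h9⟩
  by_cases h10 : ρ = 1
  · exact (h10 ▸ hB).caseV h4 hz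
  · exact hB.caseQ h10 hE

end H85.TG
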