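import Mathlib
import Cfsg.Agent.Lib.TG.CaseA
import Cfsg.Agent.Lib.TG.CaseB
import Cfsg.Agent.Lib.K44.Defs

/-! Obstructions in two-generated 2-groups of order at most 64. -/

set_option autoImplicit false
set_option linter.unusedSectionVars false
set_option linter.style.haveILetI false

open Subgroup H86
open scoped commutatorElement

namespace H85.TG

universe u

variable {G : Type u} [Group G] [Finite G] {D Q K : Subgroup G} {x y z : G}

theorem schreier_aux (hD : IsPGroup 2 D) (h : closure ({x, y} : Set G) = D) (hQ : Q ≤ D)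
    (hi : Idx Q D) (hx : x ∉ Q) (hy : y ∈ Q) : Nat.card Q ≤ 8 * Nat.card (Fr Q) := by
  have hxD : x ∈ D := h ▸ subset_closure (by simp)
  have hQ2 : IsPGroup 2 Q := hD.to_le hQ
  have h1 : x * y * x⁻¹ ∈ Q := hi _ (mul_mem hxD (hQ hy)) _ (inv_mem hxD)
    (fun h => hx (by simpa using mul_mem h (inv_mem hy))) (fun h => hx (inv_mem_iff.1 h))
  have h2 : x ^ 2 ∈ Q := by rw [pow_two]; exact hi _ hxD _ hxD hx hx
  set H := closure ({y, x * y * x⁻¹, x ^ 2} : Set G) with hH
  have m1 : y ∈ H := subset_closure (by simp)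
  have m2 : x * y * x⁻¹ ∈ H := subset_closure (by simp)
  have m3 : x ^ 2 ∈ H := subset_closure (by simp)
  have hHQ : H ≤ Q := (closure_le _).2 (by rintro _ (rfl | rfl | rfl) <;> assumption)
  have hn : x ∈ Nor H := mem_Nor_of fun n hn => by
    induction hn using closure_induction with
    | mem n hn =>
      rcases hn with rfl | rfl | rfl
      · exact m2
      · have := mul_mem (mul_mem m3 m1) (inv_mem m3)
        convert this using 1; grp
      · convert m3 using 1; grp
    | one => simpa using H.one_mem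
    | mul a b _ _ ha hb => convert mul_mem ha hb using 1; group
    | inv a _ ha => convert inv_mem ha using 1; group
  have h3 := H5.card_sup_zpowers Nat.prime_two hn (fun h => hx (hHQ h)) m3
  have h4 : D ≤ H ⊔ zpowers x := by
    rw [← h, closure_le]
    rintro _ (rfl | rfl)
    · exact mem_sup_right (mem_zpowers _)
    · exact mem_sup_left m1
  have h5 := card_le_of_le h4
  have h6 := two_card_le (lt_of_le_of_ne hQ fun e => hx (e ▸ hxD))
  have h7 := card_sup_le hQ2 le_rfl Fr_le hy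
  have l1 : Fr Q ⊔ zpowers y ≤ Q := sup_le Fr_le (zpowers_le.2 hy)
  have h8 := card_sup_le hQ2 le_sup_left l1 h1
  have l2 := sup_le l1 (zpowers_le.2 h1)
  have h9 := card_sup_le hQ2 (le_sup_left.trans le_sup_left) l2 h2
  have h10 : H ≤ Fr Q ⊔ zpowers y ⊔ zpowers (x * y * x⁻¹) ⊔ zpowers (x ^ 2) := by
    rw [hH, closure_le]
    rintro _ (rfl | rfl | rfl)
    · exact mem_sup_left (mem_sup_left (mem_sup_right (mem_zpowers _)))
    · exact mem_sup_left (mem_sup_right (mem_zpowers _))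
    · exact mem_sup_right (mem_zpowers _)
  have := card_le_of_le h10
  omega

theorem schreier (hD : IsPGroup 2 D) (h : closure ({x, y} : Set G) = D) (hQ : Q < D)
    (hi : Idx Q D) : Nat.card Q ≤ 8 * Nat.card (Fr Q) := by
  have hxD : x ∈ D := h ▸ subset_closure (by simp)
  have hyD : y ∈ D := h ▸ subset_closure (by simp)
  by_cases hx : x ∈ Q <;> by_cases hy : y ∈ Q
  · exact absurd (h.ge.trans ((closure_le _).2 (by rintro _ (rfl | rfl) <;> assumption))) hQ.not_ge
  · exact schreier_aux hD (by rw [Set.pair_comm]; exact h) hQ.le hi hy hx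
  · exact schreier_aux hD h hQ.le hi hx hy
  · refine schreier_aux hD (x := x) (y := x * y) (le_antisymm ?_ ?_) hQ.le hi hx
      (hi _ hxD _ hyD hx hy)
    · rw [closure_le]
      rintro _ (rfl | rfl)
      · exact hxD
      · exact mul_mem hxD hyD
    · rw [← h, closure_le]
      have m1 : x ∈ closure ({x, x * y} : Set G) := subset_closure (by simp)
      have m2 : x * y ∈ closure ({x, x * y} : Set G) := subset_closure (by simp)
      rintro _ (rfl | rfl)
      · exact m1
      · simpa using mul_mem (inv_mem m1) m2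

theorem relIndex_le_eight (hD : IsPGroup 2 D) (h64 : Nat.card D ≤ 64)
    (h : closure ({x, y} : Set G) = D) (hQ : Q < D) (hz : z ∈ Q) (h1 : z ≠ 1) :
    (Fr Q ⊔ zpowers z).relIndex Q ≤ 8 := by
  have h2 := H1.card_mul_relIndex_of_le (sup_le Fr_le (zpowers_le.2 hz) : Fr Q ⊔ zpowers z ≤ Q)
  have h3 : Nat.card Q ≤ Nat.card (Fr Q ⊔ zpowers z : Subgroup G) * 8 := by
    by_cases h4 : Nat.card Q ≤ 16
    · have := two_card_le (H := ⊥) (K := Fr Q ⊔ zpowers z) (bot_lt_iff_ne_bot.2 fun e =>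
        h1 (mem_bot.1 (e ▸ mem_sup_right (mem_zpowers z))))
      rw [card_bot] at this
      omega
    · obtain ⟨k, hk⟩ := IsPGroup.iff_card.1 (hD.to_le hQ.le)
      have h5 : 2 ^ 4 < 2 ^ k := by omega
      have h6 : 2 ^ 5 ≤ 2 ^ k := Nat.pow_le_pow_right two_pos
        ((Nat.pow_lt_pow_iff_right one_lt_two).1 h5)
      have := schreier hD h hQ (idx_of_card hQ.le (by omega))
      have := card_le_of_le (le_sup_left : Fr Q ≤ Fr Q ⊔ zpowers z)
      omega
  exact Nat.le_of_mul_le_mul_left (h2.le.trans h3) Nat.card_pos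

theorem Obs.main (h : Obs D Q K) (hD : IsPGroup 2 D) (h64 : Nat.card D ≤ 64)
    (hg : closure ({x, y} : Set G) = D) (hE : ∀ d ∈ D, 4 * orderOf d < Nat.card D)
    (h3 : ⁅⁅D, D⁆, D⁆ ≠ ⊥) (zc : z ∈ center G) (hz : z ∈ ⁅D, D⁆) (z1 : z ≠ 1) (z2 : z ^ 2 = 1) :
    Tame D ∨ PP D z := by
  have zD : z ∈ D := (commutator_le_self D) hz
  by_cases e : D = Q
  · subst e
    obtain ⟨g, hK, ho, hc⟩ := h.exists_odd
    exact absurd (class_two hD h64 hg (h.nor hK) ho hc) h3
  have zQ : z ∈ Q := h.cen_le ⟨zD, center_le_centralizer _ zc⟩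
  have h8 := relIndex_le_eight hD h64 hg (lt_of_le_of_ne h.le (Ne.symm e)) zQ z1
  obtain ⟨g, s, h1⟩ := h.exists_ob2 hD e zc h8
  obtain ⟨s, h2, h4⟩ := h1.adjust hD
  have c : Ctx D Q g s z := ⟨h2, h4, hD, h64, zc, zD, z1, z2, h8⟩
  by_cases hN : D ≤ Nor Q
  · exact c.caseA (card_le_four hD hg) hE hz hN
  · exact (c.caseB (card_le_four hD hg) hE hz hN).elim

section
variable {H : Type*} [Group H] [Finite H] {f : H →* G} {E R L : Subgroup H} {w : H}

theorem Tame.map (hf : Function.Injective f) (h : Tame E) : Tame (E.map f) := by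
  obtain ⟨w, hw, a, ha, b, hb, h1, h2, h3, h4, h5, h6, h7, h8⟩ := h
  have k : ∀ t, f t ∈ zpowers (f w) ↔ t ∈ zpowers w := fun t => by
    rw [← MonoidHom.map_zpowers, mem_map_iff_mem hf]
  refine ⟨f w, mem_map_of_mem f hw, f a, mem_map_of_mem f ha, f b, mem_map_of_mem f hb, ?_,
    by rw [orderOf_injective f hf, h2], by rw [card_map_of_injective hf, h3],
    by rwa [← map_pow, k], by rw [← map_pow, h5, map_one], by rwa [k], by rwa [← map_pow, k], ?_⟩
  · rintro _ ⟨d, hd, rfl⟩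
    rw [← map_mul, ← map_mul, h1 d hd]
  · simpa only [map_mul, map_inv, map_pow] using (k _).2 h8

theorem PP.map (hf : Function.Injective f) (h : PP E w) : PP (E.map f) (f w) := by
  obtain ⟨u, hu, h1, h2, h3, h4, h5⟩ := h
  rw [PP, ← map_commutator]
  refine ⟨f u, mem_map_of_mem f hu, ?_, ?_, ?_, ?_, ?_⟩
  · rwa [← map_pow, map_ne_one_iff f hf]
  · rw [← map_pow, ← map_pow, h2, map_one]
  · rintro _ ⟨d, hd, rfl⟩
    rw [← map_pow, ← map_mul, ← map_mul, h3 d hd]
  · rw [← map_pow]; exact fun e => h4 (hf e)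
  · rintro _ ⟨d, hd, rfl⟩
    rw [← map_pow, ← map_pow, ← MonoidHom.map_zpowers]
    exact mem_map_of_mem f (h5 d hd)

end

theorem Obs.main' {C : Subgroup G} (hC : D ≤ C) {R L : Subgroup C} (h : Obs (D.subgroupOf C) R L)
    (hD : IsPGroup 2 D) (h64 : Nat.card D ≤ 64) (hg : closure ({x, y} : Set G) = D)
    (hE : ∀ d ∈ D, 4 * orderOf d < Nat.card D) (h3 : ⁅⁅D, D⁆, D⁆ ≠ ⊥) (zc : ∀ c ∈ C, c * z = z * c)
    (hz : z ∈ ⁅D, D⁆) (z1 : z ≠ 1) (z2 : z ^ 2 = 1) : Tame D ∨ PP D z := by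
  have hi := C.subtype_injective
  have e : (D.subgroupOf C).map C.subtype = D := map_subgroupOf_eq_of_le hC
  have ec : Nat.card (D.subgroupOf C) = Nat.card D := by rw [← card_map_of_injective hi, e]
  have hx : x ∈ D := hg ▸ subset_closure (by simp)
  have hy : y ∈ D := hg ▸ subset_closure (by simp)
  have zD : z ∈ D := (commutator_le_self D) hz
  have := h.main (x := ⟨x, hC hx⟩) (y := ⟨y, hC hy⟩) (z := ⟨z, hC zD⟩)
    (hD.comap_subtype) (ec ▸ h64) (map_injective hi (by
      rw [e, MonoidHom.map_closure, Set.image_pair]; exact hg))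
    (fun d hd => by rw [ec, ← orderOf_injective _ hi]; exact hE _ hd)
    (fun h4 => h3 (by rw [← e, ← map_commutator, ← map_commutator, h4, Subgroup.map_bot]))
    (mem_center_iff.2 fun c => Subtype.ext (zc c c.2))
    ((mem_map_iff_mem hi).1 (by rw [map_commutator, e]; exact hz))
    (fun h4 => z1 (congrArg Subtype.val h4)) (Subtype.ext z2)
  exact this.imp (fun h4 => e ▸ h4.map hi) fun h4 => e ▸ h4.map hi

theorem Tame.good (h : Tame D) : K44.Good D := by
  obtain ⟨w, hw, a, ha, b, hb, h1, h2, h3, h4, h5, h6, h7, h8⟩ := h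
  refine ⟨⟨w, hw⟩, fun g => Subtype.ext (h1 g g.2), fun H _ _ π hπ => ?_⟩
  have k : ∀ t : D, π t = 1 ↔ (t : G) ∈ zpowers w := fun t => by
    rw [← MonoidHom.mem_ker, hπ, ← mem_map_iff_mem D.subtype_injective, MonoidHom.map_zpowers]
    rfl
  have o : orderOf (π ⟨a, ha⟩) = 2 ^ (2 + 1) := orderOf_eq_prime_pow
    (by rw [← map_pow, k]; exact h4) (by rw [← map_pow, k]; simp [h5])
  have c : π ⟨b, hb⟩ * π ⟨a, ha⟩ * (π ⟨b, hb⟩)⁻¹ = π ⟨a, ha⟩ ^ 3 := by
    rw [← mul_inv_eq_one, ← map_pow, ← map_inv, ← map_inv, ← map_mul, ← map_mul, ← map_mul, k]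
    exact h8
  refine Or.inr (Or.inl ⟨1, 3, π ⟨a, ha⟩, π ⟨b, hb⟩, Or.inr ⟨le_rfl, by norm_num⟩, ⟨_, rfl⟩,
    ⟨_, rfl⟩, o, ?_, ?_, by rw [c]; exact (zpow_natCast _ 3).symm,
    Or.inl (by rw [← map_pow, k]; exact h7)⟩)
  · have h9 := π.ker.index_mul_card
    rw [index_ker, h3, hπ, Nat.card_zpowers, orderOf_mk, h2] at h9
    omega
  · rintro ⟨i, hi⟩
    have h9 : π ⟨a, ha⟩ ^ 2 = 1 := by
      rw [← hi, ((Commute.refl _).zpow_left i).eq, mul_inv_cancel_right] at c
      exact mul_left_cancel (a := π ⟨a, ha⟩) (by rw [← pow_succ', ← c, mul_one])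
    have := orderOf_dvd_of_pow_eq_one h9
    rw [o] at this
    omega

theorem good_of_two (hD : IsPGroup 2 D) (hg : closure ({x, y} : Set G) = D)
    (h : ⁅⁅D, D⁆, D⁆ = ⊥) : K44.Good D := by
  have hx : x ∈ D := hg ▸ subset_closure (by simp)
  have hy : y ∈ D := hg ▸ subset_closure (by simp)
  have e := comm_eq_zpowers hg h
  have hz := commutator_mem_commutator hx hy
  refine ⟨⁅(⟨x, hx⟩ : D), ⟨y, hy⟩⁆, fun g => Subtype.ext ?_, fun H _ _ π hπ => Or.inl ?_⟩
  · exact (commutatorElement_eq_one_iff_mul_comm.1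
      (mem_bot.1 (h ▸ commutator_mem_commutator hz g.2))).symm
  have hab : ∀ u v : π.range, u * v = v * u := by
    rintro ⟨_, u, rfl⟩ ⟨_, v, rfl⟩
    refine Subtype.ext (commutatorElement_eq_one_iff_mul_comm.1 ?_)
    rw [← map_commutatorElement, ← MonoidHom.mem_ker, hπ, ← mem_map_iff_mem D.subtype_injective,
      MonoidHom.map_zpowers]
    exact e.le (commutator_mem_commutator u.2 v.2)
  refine ⟨fun u hu v hv => congrArg Subtype.val (hab ⟨u, hu⟩ ⟨v, hv⟩), ?_⟩
  letI : CommGroup π.range := { (inferInstance : Group π.range) with mul_comm := hab }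
  have hP : IsPGroup 2 (⊤ : Subgroup π.range) :=
    (hD.of_surjective _ π.rangeRestrict_surjective).to_subgroup ⊤
  have h1 := card_le_four hP (x := π.rangeRestrict ⟨x, hx⟩) (y := π.rangeRestrict ⟨y, hy⟩) (by
    rw [← Set.image_pair, ← MonoidHom.map_closure, closure_top hg hx hy]
    exact map_top_of_surjective _ π.rangeRestrict_surjective)
  have h2 := card_le_of_le (Fr_le_of_sq hP (H := (powMonoidHom 2 : π.range →* π.range).range)
    fun d _ => ⟨d, rfl⟩)
  have h3 := (powMonoidHom 2 : π.range →* π.range).ker.index_mul_card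
  rw [index_ker] at h3
  rw [card_top] at h1
  have h4 : Nat.card (powMonoidHom 2 : π.range →* π.range).ker ≤ 4 :=
    Nat.le_of_mul_le_mul_left (c := Nat.card (powMonoidHom 2 : π.range →* π.range).range)
      (by omega) Nat.card_pos
  exact h4

end H85.TG
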