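import Mathlib
import Cfsg.Agent.Lib.TG.Top
import Cfsg.Agent.Lib.K44.Main

/-! Blocks whose defect group is generated by two elements and has order at most 64. -/

set_option autoImplicit false
set_option linter.unusedSectionVars false
set_option linter.style.haveILetI false
attribute [local irreducible] H33.instFieldF

namespace H85.TG

open Cfsg Subgroup H86
open scoped commutatorElement

universe u

variable {G : Type u} [Group G] [Finite G] {M : Ideal AlgInt} {B : Set (IrrCharacter G)}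
  {D : Subgroup G} {x y z : G}

theorem card_le_good (hM : IsPModular 2 M) (hB : IsPBlock M B) (hD : IsDefectGroup 2 M B D)
    (h : K44.Good D) : Nat.card B ≤ Nat.card D := by
  haveI := H33.isMaximal_of hM
  refine K44.card_le_of_good hM hB hD (fun K _ _ b Q A k a c hb hQ q => ?_) h
  letI := Fintype.ofFinite K
  obtain ⟨e, h⟩ := H85.exists_mp hM hb hQ
  obtain ⟨d, q'⟩ := q.exists_d
  exact K44.rank_le_qs h q'

theorem step (hM : IsPModular 2 M) (hB : IsPBlock M B) (hD : IsDefectGroup 2 M B D)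
    (h64 : Nat.card D ≤ 64) (hg : closure ({x, y} : Set G) = D)
    (hE : ∀ d ∈ D, 4 * orderOf d < Nat.card D) (h3 : ⁅⁅D, D⁆, D⁆ ≠ ⊥) (zc : ∀ d ∈ D, d * z = z * d)
    (hz : z ∈ ⁅D, D⁆) (z1 : z ≠ 1) (z2 : z ^ 2 = 1) : Nat.card B ≤ Nat.card D ∨ PP D z := by
  letI := Fintype.ofFinite G
  haveI := H33.isMaximal_of hM
  haveI := H33.charP hM
  obtain ⟨e, m⟩ := exists_mp hM hB hD
  have zD : z ∈ D := (commutator_le_self D) hz
  have hQ : zpowers z ≤ D := zpowers_le.2 zD
  have hc : D ≤ Cen (zpowers z) := fun d hd => mem_Cen_zpowers.2 (zc d hd).symm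
  letI := Fintype.ofFinite (Cen (zpowers z))
  haveI := H86.good hM (Cen (zpowers z))
  obtain ⟨e', m'⟩ := exists_mp hM (m.blk hQ) (m.isDef_loc hQ hc)
  rcases isNil_or_obs m'.max (isBlk_eB m'.hB) with h | ⟨R, L, h⟩
  · refine Or.inl (K44.card_le_of_rank m ⟨zD, mem_centralizer_iff.2 zc⟩ ?_)
    rw [m'.blockRank_of_ctrl (m'.ctrl_of_isNil h)]
    norm_num
  · exact (h.main' hc (H33.defect_isPGroup hD) h64 hg hE h3
      (fun c hc => (mem_Cen_zpowers.1 hc).symm) hz z1 z2).imp_left
      fun h4 => card_le_good hM hB hD h4.good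

theorem card_le (hM : IsPModular 2 M) (hB : IsPBlock M B) (hD : IsDefectGroup 2 M B D)
    (h64 : Nat.card D ≤ 64) (hg : closure ({x, y} : Set G) = D) : Nat.card B ≤ Nat.card D := by
  have hP : IsPGroup 2 D := H33.defect_isPGroup hD
  by_cases hE : ∀ d ∈ D, 4 * orderOf d < Nat.card D
  swap
  · push Not at hE
    obtain ⟨d, hd, h⟩ := hE
    have h1 := H1.card_mul_relIndex_of_le (zpowers_le.2 hd)
    rw [Nat.card_zpowers] at h1
    exact K44.card_le hM hB hD (zpowers_le.2 hd) inferInstance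
      (Nat.le_of_mul_le_mul_left (c := orderOf d) (by omega) (orderOf_pos d))
  by_cases h3 : ⁅⁅D, D⁆, D⁆ = ⊥
  · exact card_le_good hM hB hD (good_of_two hP hg h3)
  obtain ⟨z, hz, zc, zo⟩ := H5.exists_mem_centralizer_orderOf_eq hP (commutator_le_self D)
    (H2.le_normalizer_of_commutator_le (commutator_le_self D) le_rfl)
    (fun h => h3 (by rw [h, commutator_bot_left]))
  refine (step hM hB hD h64 hg hE h3 (mem_centralizer_iff.1 zc) hz
    (fun h => by rw [h, orderOf_one] at zo; omega) (zo ▸ pow_orderOf_eq_one z)).elim id ?_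
  rintro ⟨u, hu, h1, h2, h4, -, h5⟩
  refine (step hM hB hD h64 hg hE h3 h4 (pow_mem hu 2) h1 h2).elim id ?_
  rintro ⟨v, hv, h6, -, -, h7, -⟩
  exact ((mem_zpowers_inv h2 (h5 v hv)).elim h6 h7).elim

end H85.TG
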